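import Cfsg.Agent.H380.RG.TitsWords
import Cfsg.Agent.H916.RG.Pair
import Cfsg.Agent.H369.Ti.Facts
import Cfsg.Agent.H371.Tall.Tits
import Cfsg.Agent.H631.TitsD.Words

/-!
# S3509: the Tits group (helper380)

`rc_tits` : `RC T` for the Tits group.  The elements of prime order of `Aut T` are inner, the element orders of `T` divisible by
5, 3, 13 divide 10, 12, 13, and the pairs (involution, element of order 5 or 3) of commuting elements form one class each;
they are killed by the relations of `TitsWords`.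
-/

set_option autoImplicit false
set_option linter.unusedSectionVars false

namespace Cfsg.Agent.H380.RG

open Subgroup Cfsg Cfsg.Agent.H106.RC Cfsg.Agent.H916.RG

section gen

variable {C : Type*} [Group C] [Finite C]

/-- the involutions of a group with cyclic Sylow 2-subgroups of order 2 or 4 -/
theorem conj_invol {x : C} {k m : ℕ} (hk : k = 1 ∨ k = 2) (hx : orderOf x = 2 ^ k) (hc : Nat.card C = 2 ^ k * m)
    (hm : ¬ 2 ∣ m) {t t' : C} (ht : orderOf t = 2) (ht' : orderOf t' = 2) : ∃ g : C, g * t * g⁻¹ = t' := by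
  have hcard : Nat.card (zpowers x) = 2 ^ k := by rw [Nat.card_zpowers, hx]
  have hi : ¬ 2 ∣ (zpowers x).index := by
    have h1 := (zpowers x).card_mul_index
    rw [hcard, hc] at h1
    rw [Nat.eq_of_mul_eq_mul_left (by positivity) h1]
    exact hm
  have key : ∀ {t : C}, orderOf t = 2 → ∃ g : C, g * t * g⁻¹ = x ^ (2 ^ (k - 1)) := by
    intro t ht
    obtain ⟨g, hg⟩ := Cfsg.Agent.H20.FrobTits.exists_conj_mem Nat.prime_two hcard hi (y := t) (b := 1) (by
      rw [pow_one, ← ht]; exact pow_orderOf_eq_one t)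
    refine ⟨g, ?_⟩
    have ho : orderOf (g * t * g⁻¹) = 2 := by
      have e : g * t * g⁻¹ = MulAut.conj g t := rfl
      rw [e, MulEquiv.orderOf_eq, ht]
    obtain ⟨i, hi, he⟩ : ∃ i < 2 ^ k, x ^ i = g * t * g⁻¹ := by
      have h1 : g * t * g⁻¹ ∈ Submonoid.powers x := by
        rw [(isOfFinOrder_of_finite x).mem_powers_iff_mem_zpowers]
        exact hg
      obtain ⟨j, hj⟩ := h1
      refine ⟨j % 2 ^ k, Nat.mod_lt _ (by positivity), ?_⟩
      rw [← hx, pow_mod_orderOf]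
      exact hj
    rw [← he] at ho ⊢
    have hsq : x ^ (i * 2) = 1 := by rw [pow_mul, ← ho]; exact pow_orderOf_eq_one _
    have h1 : 2 ^ k ∣ i * 2 := by rw [← hx]; exact orderOf_dvd_of_pow_eq_one hsq
    have h0 : i ≠ 0 := by
      rintro rfl
      rw [pow_zero, orderOf_one] at ho
      omega
    rcases hk with rfl | rfl
    · have : i = 1 := by omega
      rw [this]
      norm_num
    · have : i = 2 := by
        obtain ⟨c, hc⟩ := h1
        omega
      rw [this]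
      norm_num
  obtain ⟨g, hg⟩ := key ht
  obtain ⟨g', hg'⟩ := key ht'
  refine ⟨g'⁻¹ * g, ?_⟩
  have e : g'⁻¹ * g * t * (g'⁻¹ * g)⁻¹ = g'⁻¹ * (g * t * g⁻¹) * g' := by group
  rw [e, hg, ← hg']
  group

variable {S : Type*} [Group S] [Finite S]

/-- the pairs are conjugate -/
theorem pair_conj {r k m : ℕ} (hk : k = 1 ∨ k = 2) (hm : ¬ 2 ∣ m)
    (hconj : ∀ y y' : S, orderOf y = r → orderOf y' = r → IsConj y y')
    (hcard : ∀ y : S, orderOf y = r → Nat.card (centralizer ({y} : Set S)) = 2 ^ k * m)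
    (hx : ∀ y : S, orderOf y = r → ∃ x : S, x * y = y * x ∧ orderOf x = 2 ^ k) {t y t' y' : S} (ht : orderOf t = 2)
    (ht' : orderOf t' = 2) (hy : orderOf y = r) (hy' : orderOf y' = r) (hc : t * y = y * t) (hc' : t' * y' = y' * t') :
    ∃ g : S, g * t * g⁻¹ = t' ∧ g * y * g⁻¹ = y' := by
  obtain ⟨g, hg⟩ := isConj_iff.1 (hconj y y' hy hy')
  obtain ⟨x, hxy, hxo⟩ := hx y' hy'
  let C : Subgroup S := centralizer ({y'} : Set S)
  have mem : ∀ u : S, u * y' = y' * u → u ∈ C := fun u hu => mem_centralizer_singleton_iff.2 hu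
  have h1 : g * t * g⁻¹ * y' = y' * (g * t * g⁻¹) := by
    rw [← hg]
    calc g * t * g⁻¹ * (g * y * g⁻¹) = g * (t * y) * g⁻¹ := by group
      _ = g * (y * t) * g⁻¹ := by rw [hc]
      _ = g * y * g⁻¹ * (g * t * g⁻¹) := by group
  have ho : orderOf (g * t * g⁻¹) = 2 := by
    have e : g * t * g⁻¹ = MulAut.conj g t := rfl
    rw [e, MulEquiv.orderOf_eq, ht]
  obtain ⟨c, hcc⟩ := conj_invol (C := C) (x := ⟨x, mem x hxy⟩) hk (by rw [Subgroup.orderOf_mk, hxo]) (hcard y' hy') hm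
    (t := ⟨g * t * g⁻¹, mem _ h1⟩) (t' := ⟨t', mem _ hc'⟩) (by rw [Subgroup.orderOf_mk, ho])
    (by rw [Subgroup.orderOf_mk, ht'])
  refine ⟨c * g, ?_, ?_⟩
  · have h2 := congrArg Subtype.val hcc
    change (c : S) * (g * t * g⁻¹) * (c : S)⁻¹ = t' at h2
    rw [← h2]
    group
  · have h3 : (c : S) * y' = y' * c := mem_centralizer_singleton_iff.1 c.2
    have e : (c : S) * g * y * ((c : S) * g)⁻¹ = c * (g * y * g⁻¹) * (c : S)⁻¹ := by group
    rw [e, hg, h3]
    group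

end gen

/-- the facts on the Tits group used for the row -/
structure TFacts (X : Type*) [Group X] : Prop where
  simp : IsSimpleGroup X
  nc : ¬ IsMulCommutative X
  rels : Rels X
  card : Nat.card X = 2 ^ 11 * 3 ^ 3 * 5 ^ 2 * 13
  five : ∀ g : X, 5 ∣ orderOf g → orderOf g ∣ 10
  three : ∀ g : X, 3 ∣ orderOf g → orderOf g ∣ 12
  thirteen : ∀ (g : X) (s : ℕ), s.Prime → s ≠ 13 → orderOf g ≠ 13 * s
  pair5 : ∀ t y t' y' : X, orderOf t = 2 → orderOf t' = 2 → orderOf y = 5 → orderOf y' = 5 → t * y = y * t →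
    t' * y' = y' * t' → ∃ g : X, g * t * g⁻¹ = t' ∧ g * y * g⁻¹ = y'
  pair3 : ∀ t y t' y' : X, orderOf t = 2 → orderOf t' = 2 → orderOf y = 3 → orderOf y' = 3 → t * y = y * t →
    t' * y' = y' * t' → ∃ g : X, g * t * g⁻¹ = t' ∧ g * y * g⁻¹ = y'
  inn : ∀ (a : MulAut X) (p : ℕ), p.Prime → orderOf a = p → ∃ x : X, a = MulAut.conj x

namespace TFacts

variable {X : Type*} [Group X] (h : TFacts X)

include h

theorem dead5 {t y : X} (ht : orderOf t = 2) (hy : orderOf y = 5) (hc : t * y = y * t) : Dead (⊤ : Subgroup X) t y := by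
  obtain ⟨z, y0, n, h1, h2, h3, h4, h5, h6, h7⟩ := h.rels.ten
  have hz : orderOf z = 2 := orderOf_eq_prime (by rw [pow_two, h2]) h1 (hp := ⟨Nat.prime_two⟩)
  have hy0 : orderOf y0 = 5 := orderOf_eq_prime h4 h3 (hp := ⟨Nat.prime_five⟩)
  have hD : Dead (⊤ : Subgroup X) z y0 := dead1 (nice_top h.simp h.nc) h1 (mem_top n) h6 5 h7
  obtain ⟨g, hg1, hg2⟩ := h.pair5 z y0 t y hz ht hy0 hy h5 hc
  have h8 := hD.conj (mem_top g)
  rwa [hg1, hg2] at h8

theorem dead3 {t y : X} (ht : orderOf t = 2) (hy : orderOf y = 3) (hc : t * y = y * t) : Dead (⊤ : Subgroup X) t y := by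
  obtain ⟨i, y0, n, w, m, h1, h2, h3, h4, h5, h6, h7, h8, h9⟩ := h.rels.six
  have hi : orderOf i = 2 := orderOf_eq_prime (by rw [pow_two, h2]) h1 (hp := ⟨Nat.prime_two⟩)
  have hy0 : orderOf y0 = 3 := orderOf_eq_prime h4 h3 (hp := ⟨Nat.prime_three⟩)
  have e1 : (i⁻¹ * (n * i * n⁻¹)) ^ 1 = w := by rw [pow_one, h7]; group
  have e2 : (w⁻¹ * (m * w * m⁻¹)) ^ 1 = y0 := by rw [pow_one, h9]; group
  have hD1 : Dead (⊤ : Subgroup X) y0 w := dead1 (nice_top h.simp h.nc) h3 (mem_top m) h8 1 e2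
  have hD : Dead (⊤ : Subgroup X) y0 i := Dead.step (mem_top n) h6 1 e1 hD1
  obtain ⟨g, hg1, hg2⟩ := h.pair3 i y0 t y hi ht hy0 hy h5 hc
  have h10 := hD.symm.conj (mem_top g)
  rwa [hg1, hg2] at h10

/-- primes of the group -/
theorem primes {x : X} {r : ℕ} (hr : r.Prime) (hx : orderOf x = r) : r = 2 ∨ r = 3 ∨ r = 5 ∨ r = 13 := by
  have hd : r ∣ 2 ^ 11 * 3 ^ 3 * 5 ^ 2 * 13 := by
    rw [← hx, ← h.card]
    exact orderOf_dvd_natCard x
  rcases (Nat.Prime.dvd_mul hr).1 hd with hd | hd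
  · rcases (Nat.Prime.dvd_mul hr).1 hd with hd | hd
    · rcases (Nat.Prime.dvd_mul hr).1 hd with hd | hd
      · exact Or.inl ((Nat.prime_dvd_prime_iff_eq hr Nat.prime_two).1 (hr.dvd_of_dvd_pow hd))
      · exact Or.inr (Or.inl ((Nat.prime_dvd_prime_iff_eq hr Nat.prime_three).1 (hr.dvd_of_dvd_pow hd)))
    · exact Or.inr (Or.inr (Or.inl ((Nat.prime_dvd_prime_iff_eq hr Nat.prime_five).1 (hr.dvd_of_dvd_pow hd))))
  · exact Or.inr (Or.inr (Or.inr ((Nat.prime_dvd_prime_iff_eq hr (by norm_num)).1 hd)))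

/-- two commuting elements of different prime orders -/
theorem two_primes {x y : X} {r s : ℕ} (hr : r.Prime) (hs : s.Prime) (hrs : r < s) (hx : orderOf x = r)
    (hy : orderOf y = s) (hc : x * y = y * x) : r = 2 ∧ (s = 3 ∨ s = 5) := by
  have hxy : orderOf (x * y) = r * s := by
    rw [← hx, ← hy]
    refine Commute.orderOf_mul_eq_mul_orderOf_of_coprime hc ?_
    rw [hx, hy]
    exact (Nat.coprime_primes hr hs).2 hrs.ne
  rcases h.primes hs hy with rfl | rfl | rfl | rfl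
  · exact absurd hr.two_le (by omega)
  · have := hr.two_le
    exact ⟨by omega, Or.inl rfl⟩
  · have h1 := h.five (x * y) (by rw [hxy]; exact dvd_mul_left 5 r)
    rw [hxy] at h1
    have h2 : r ∣ 2 := by
      have h3 : r * 5 ∣ 2 * 5 := by simpa using h1
      exact Nat.dvd_of_mul_dvd_mul_right (by norm_num) h3
    exact ⟨(Nat.prime_dvd_prime_iff_eq hr Nat.prime_two).1 h2, Or.inr rfl⟩
  · exact absurd (by rw [hxy, mul_comm]) (h.thirteen (x * y) r hr hrs.ne)

/-- **the row, abstract form** -/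
theorem rc [Finite X] : RC X := by
  intro g
  have : Finite (MulAut X) := Finite.of_injective (fun a : MulAut X => (a : X → X)) DFunLike.coe_injective
  have hinj := conj_injective h.simp h.nc
  set M := orderOf g with hM
  have hM0 : M ≠ 0 := (orderOf_pos g).ne'
  -- the elements of prime order
  have key : ∀ r : ℕ, r.Prime → r ∣ M → ∃ x : X, MulAut.conj x = g ^ (M / r) ∧ orderOf x = r := by
    intro r hr hrM
    have ho : orderOf (g ^ (M / r)) = r := by
      rw [orderOf_pow_of_dvd (Nat.div_pos (Nat.le_of_dvd (Nat.pos_of_ne_zero hM0) hrM) hr.pos).ne' (Nat.div_dvd_of_dvd hrM),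
        ← hM, Nat.div_div_self hrM hM0]
    obtain ⟨x, hx⟩ := h.inn _ r hr ho
    refine ⟨x, hx.symm, ?_⟩
    rw [← orderOf_injective (MulAut.conj : X →* MulAut X) hinj x, ← hx, ho]
  have comm : ∀ {r s : ℕ} {x y : X}, MulAut.conj x = g ^ (M / r) → MulAut.conj y = g ^ (M / s) → x * y = y * x := by
    intro r s x y hx hy
    apply hinj
    rw [map_mul, map_mul, hx, hy, ← pow_add, ← pow_add, add_comm]
  have two : ∀ r s : ℕ, r.Prime → s.Prime → r < s → r ∣ M → s ∣ M → r = 2 ∧ (s = 3 ∨ s = 5) := by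
    intro r s hr hs hrs hrM hsM
    obtain ⟨x, hx, hxo⟩ := key r hr hrM
    obtain ⟨y, hy, hyo⟩ := key s hs hsM
    exact h.two_primes hr hs hrs hxo hyo (comm hx hy)
  by_cases hpp : ∃ p k : ℕ, p.Prime ∧ M = p ^ k
  · obtain ⟨p, k, hp, hk⟩ := hpp
    exact rce_of_prime_pow h.simp g hp (hM.symm.trans hk)
  · -- two primes
    obtain ⟨r, s, hr, hs, hrs, hrM, hsM⟩ : ∃ r s : ℕ, r.Prime ∧ s.Prime ∧ r < s ∧ r ∣ M ∧ s ∣ M := by
      have hM1 : M ≠ 1 := fun h1 => hpp ⟨2, 0, Nat.prime_two, by rw [h1, pow_zero]⟩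
      obtain ⟨p, hp, hpM⟩ := Nat.exists_prime_and_dvd hM1
      by_contra hcon
      push Not at hcon
      apply hpp
      refine ⟨p, M.factorization p, hp, ?_⟩
      have h2 : ∀ {d : ℕ}, d.Prime → d ∣ M → d = p := by
        intro d hd hdM
        rcases lt_trichotomy d p with h3 | h3 | h3
        · exact absurd hpM (hcon d p hd hp h3 hdM)
        · exact h3
        · exact absurd hdM (hcon p d hp hd h3 hpM)
      have h4 := Nat.eq_prime_pow_of_unique_prime_dvd hM0 h2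
      rw [h4, hp.factorization_pow, Finsupp.single_eq_same]
    obtain ⟨rfl, hs35⟩ := two r s hr hs hrs hrM hsM
    have hpr : ∀ d : ℕ, d.Prime → d ∣ M → d = 2 ∨ d = s := by
      intro d hd hdM
      rcases lt_trichotomy d s with h3 | h3 | h3
      · exact Or.inl (two d s hd hs h3 hdM hsM).1
      · exact Or.inr h3
      · exact absurd (two s d hs hd h3 hsM hdM).1 (by omega)
    obtain ⟨t, ht, hto⟩ := key 2 hr hrM
    obtain ⟨y, hy, hyo⟩ := key s hs hsM
    refine rce_of_dead (m := M) (p := 2) (q := s) hM.symm hM0 hrM hsM hpr ?_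
    rw [← ht, ← hy]
    refine Dead.inner ?_
    rcases hs35 with rfl | rfl
    · exact h.dead3 hto hyo (comm ht hy)
    · exact h.dead5 hto hyo (comm ht hy)

end TFacts

section facts

/-- elements of order 5 are conjugate -/
def Cj5 (X : Type*) [Group X] : Prop := ∀ y y' : X, orderOf y = 5 → orderOf y' = 5 → IsConj y y'

open Cfsg.Agent.Omega.TwoF.Tits Cfsg.Agent.Omega.TwoF.Scalar Cfsg.Agent.Omega.TwoF.Orb
  Cfsg.Agent.ChevalleyStructure.Tits.Main Cfsg.Agent.ChevalleyStructure.Tits.Order in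
theorem cj5_aux (K : Subgroup (Matrix.GeneralLinearGroup Cfsg.Agent.ChevalleyStructure.Tits.Mat.I52 (ZMod 2)))
    (hK : K = Cfsg.Agent.ChevalleyStructure.Tits.Order.H0) : Cj5 (_root_.commutator K) := by
  subst hK
  have hc : Nat.card (_root_.commutator H0) = 2 ^ 11 * 3 ^ 3 * 5 ^ 2 * 13 := H0_result.2.2.2
  have hfin : Finite (_root_.commutator H0) := Nat.finite_of_card_ne_zero (by rw [hc]; norm_num)
  obtain ⟨P, hP, hfus⟩ : ∃ P : Subgroup (_root_.commutator H0), Nat.card P = 25 ∧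
      ∀ g ∈ P, g ≠ 1 → ∀ g' ∈ P, g' ≠ 1 → ∃ s, s * g * s⁻¹ = g' :=
    ⟨_, CpAutTits.Fus.card_P, fun g hg hg1 g' hg' hg1' => by
      obtain ⟨s, -, hs⟩ := CpAutTits.Fus.fus hg hg1 hg' hg1'
      exact ⟨s, hs⟩⟩
  have key : ∀ y : _root_.commutator H0, orderOf y = 5 → ∃ g, g * y * g⁻¹ ∈ P ∧ g * y * g⁻¹ ≠ 1 := by
    intro y hy
    have hi : ¬ 5 ∣ P.index := by
      have h1 := P.card_mul_index
      rw [hP, hc] at h1
      intro hd
      omega
    obtain ⟨g, hg⟩ := Cfsg.Agent.H20.FrobTits.exists_conj_mem (p := 5) (a := 2) Nat.prime_five (R := P)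
      (by rw [hP]; norm_num) hi (y := y) (b := 1) (by rw [pow_one, ← hy]; exact pow_orderOf_eq_one y)
    refine ⟨g, hg, fun h1 => ?_⟩
    rw [conj_eq_one_iff] at h1
    rw [h1, orderOf_one] at hy
    omega
  intro y y' hy hy'
  obtain ⟨g, hg, hg1⟩ := key y hy
  obtain ⟨g', hg', hg1'⟩ := key y' hy'
  obtain ⟨s, hs⟩ := hfus _ hg hg1 _ hg' hg1'
  refine isConj_iff.2 ⟨g'⁻¹ * s * g, ?_⟩
  have e : g'⁻¹ * s * g * y * (g'⁻¹ * s * g)⁻¹ = g'⁻¹ * (s * (g * y * g⁻¹) * s⁻¹) * g' := by group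
  rw [e, hs]
  group

theorem cj5 : Cj5 Cfsg.Lie.TitsGroup :=
  cj5_aux (Cfsg.Lie.twistedF4 (ZMod 2) 1) Cfsg.Agent.ChevalleyStructure.Tits.Main.T0_eq_H0

theorem rels_aux (K : Subgroup (Matrix.GeneralLinearGroup Cfsg.Agent.ChevalleyStructure.Tits.Mat.I52 (ZMod 2)))
    (hK : K = Cfsg.Agent.ChevalleyStructure.Tits.Order.H0) : Rels (_root_.commutator K) := by
  subst hK
  exact rels

theorem rels_tits : Rels Cfsg.Lie.TitsGroup :=
  rels_aux (Cfsg.Lie.twistedF4 (ZMod 2) 1) Cfsg.Agent.ChevalleyStructure.Tits.Main.T0_eq_H0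

theorem tfacts_of {X : Type} [Group X] [Finite X] (hI : Lie.IsoTits X) (hs : IsSimpleGroup X) (hn : ¬ IsMulCommutative X)
    (hr : Rels X) (D : H87.TitsAbs.Dat X) (O : CpAutTits.Row.Out X) (h5 : Cj5 X) (F : H369.Ti.Facts.Fs X)
    (E : H631.TitsD.Els X) : TFacts X where
  simp := hs
  nc := hn
  rels := hr
  card := O.card
  five := F.five
  three := F.three
  thirteen := fun g s hsp hs13 ho => by
    exact (H58.Rec.isolated_iff.1 F.iso) s hsp hs13 ⟨g, ho⟩
  pair5 := by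
    intro t y t' y' ht ht' hy hy' hc hc'
    refine pair_conj (k := 1) (m := 25) (Or.inl rfl) (by norm_num) h5 (fun y hy => (O.cent y hy).trans (by norm_num)) ?_ ht ht' hy hy'
      hc hc'
    intro y2 hy2
    obtain ⟨g, hg⟩ := isConj_iff.1 (h5 y y2 hy hy2)
    refine ⟨g * t * g⁻¹, ?_, ?_⟩
    · rw [← hg]
      calc g * t * g⁻¹ * (g * y * g⁻¹) = g * (t * y) * g⁻¹ := by group
        _ = g * (y * t) * g⁻¹ := by rw [hc]
        _ = g * y * g⁻¹ * (g * t * g⁻¹) := by group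
    · have e : g * t * g⁻¹ = MulAut.conj g t := rfl
      rw [e, MulEquiv.orderOf_eq, ht]
      norm_num
  pair3 := by
    intro t y t' y' ht ht' hy hy' hc hc'
    have h3 : ∀ y y' : X, orderOf y = 3 → orderOf y' = 3 → IsConj y y' := fun y y' hy hy' =>
      H631.TitsD.conj_three hI hy hy'
    have hD3 : orderOf D.t = 3 := orderOf_eq_prime D.t3 D.t1 (hp := ⟨Nat.prime_three⟩)
    refine pair_conj (k := 2) (m := 27) (Or.inr rfl) (by norm_num) h3 ?_ ?_ ht ht' hy hy' hc hc'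
    · intro y2 hy2
      obtain ⟨g, hg⟩ := isConj_iff.1 (h3 D.t y2 hD3 hy2)
      refine Eq.trans ?_ ((H745.RvTits.card_cent_t D O).trans (by norm_num))
      rw [← hg]
      symm
      apply Nat.card_congr
      refine ((MulAut.conj g).subgroupMap (centralizer ({D.t} : Set X))).toEquiv.trans (Equiv.setCongr ?_)
      ext u
      constructor
      · rintro ⟨v, hv, rfl⟩
        have hv' : v * D.t = D.t * v := mem_centralizer_singleton_iff.1 hv
        refine mem_centralizer_singleton_iff.2 ?_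
        change g * v * g⁻¹ * (g * D.t * g⁻¹) = g * D.t * g⁻¹ * (g * v * g⁻¹)
        calc g * v * g⁻¹ * (g * D.t * g⁻¹) = g * (v * D.t) * g⁻¹ := by group
          _ = g * (D.t * v) * g⁻¹ := by rw [hv']
          _ = g * D.t * g⁻¹ * (g * v * g⁻¹) := by group
      · intro hu
        have hu' : u * (g * D.t * g⁻¹) = g * D.t * g⁻¹ * u := mem_centralizer_singleton_iff.1 hu
        refine ⟨g⁻¹ * u * g, mem_centralizer_singleton_iff.2 ?_, by change g * (g⁻¹ * u * g) * g⁻¹ = u; group⟩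
        calc g⁻¹ * u * g * D.t = g⁻¹ * (u * (g * D.t * g⁻¹)) * g := by group
          _ = g⁻¹ * (g * D.t * g⁻¹ * u) * g := by rw [hu']
          _ = D.t * (g⁻¹ * u * g) := by group
    · intro y2 hy2
      obtain ⟨w, hw⟩ := E.o12
      have hw4 : orderOf (w ^ 4) = 3 := by rw [orderOf_pow_of_dvd (by norm_num) (by rw [hw]; norm_num), hw]
      obtain ⟨g, hg⟩ := isConj_iff.1 (h3 (w ^ 4) y2 hw4 hy2)
      refine ⟨g * w ^ 3 * g⁻¹, ?_, ?_⟩
      · rw [← hg]
        calc g * w ^ 3 * g⁻¹ * (g * w ^ 4 * g⁻¹) = g * (w ^ 3 * w ^ 4) * g⁻¹ := by group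
          _ = g * (w ^ 4 * w ^ 3) * g⁻¹ := by rw [← pow_add, ← pow_add]
          _ = g * w ^ 4 * g⁻¹ * (g * w ^ 3 * g⁻¹) := by group
      · have e : g * w ^ 3 * g⁻¹ = MulAut.conj g (w ^ 3) := rfl
        rw [e, MulEquiv.orderOf_eq, orderOf_pow_of_dvd (by norm_num) (by rw [hw]; norm_num), hw]
        norm_num
  inn := by
    intro a p hp ha
    by_cases hp2 : p = 2
    · subst hp2
      exact H371.Tall.no_outer hI a (by rw [← pow_two, ← ha]; exact pow_orderOf_eq_one a)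
    · exact CpAutTits.Row.autInner hI hp hp2 a ha

theorem rc_model : RC Cfsg.Lie.TitsGroup := by
  have hI : Lie.IsoTits Cfsg.Lie.TitsGroup := ⟨MulEquiv.refl _⟩
  have O : CpAutTits.Row.Out Cfsg.Lie.TitsGroup := CpAutTits.Row.out hI
  have hfin : Finite Cfsg.Lie.TitsGroup := Nat.finite_of_card_ne_zero (by rw [O.card]; norm_num)
  obtain ⟨D⟩ := H87.TitsData.dat_tits
  have hT := tfacts_of hI Cfsg.Agent.S1074.result.2.1 Cfsg.Agent.S1074.result.2.2.1 rels_tits D O cj5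
    H369.Ti.Facts.fs H631.TitsD.els_tits
  exact hT.rc

theorem rc_aux {T X : Type} [Group T] [Group X] (h : RC X) (e : T ≃* X) : RC T := RC.congr e.symm h

/-- **the row of the Tits group** -/
theorem rc_tits {T : Type} [Group T] [Finite T] (h : Cfsg.Lie.IsoTits T) : RC T := by
  obtain ⟨e⟩ := h
  exact rc_aux rc_model e

end facts

end Cfsg.Agent.H380.RG
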