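import Cfsg.Agent.H87.TitsData

/-!
# S3509, the Tits group: relations of the two pair covers (helper380)

* `six` : an involution `i` commuting with `y` of order 3, `w = [i, n]`, `[w, n'] = y`, `n`, `n'` in the centraliser of `y`;
* `ten` : `y` of order 5 commuting with an involution `z`, `[y, n] ^ 5 = z`, `n` in the centraliser of `z`.
-/

set_option autoImplicit false

namespace Cfsg.Agent.H380.RG

open Cfsg.Agent.KFacts.OddLift.Basic Cfsg.Agent.KFacts.OddLift.TitMat Cfsg.Agent.KFacts.OddLift.TitGen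
open Cfsg.Agent.SporadicRecognition.CosetCert Cfsg.Agent.SporadicRecognition.CosetCertHyp
open Cfsg.Agent.ChevalleyStructure.Tits.Pack Cfsg.Agent.ChevalleyStructure.Tits.Mat
  Cfsg.Agent.ChevalleyStructure.Tits.Main Cfsg.Agent.ChevalleyStructure.Tits.Order
open Cfsg.Agent.H87.TitsData (pw ev_pw ev_one toMat_ne b_ne bit2)

open scoped MatrixGroups

/-- the relations -/
structure Rels (G : Type*) [Group G] : Prop where
  six : ∃ i y n w m : G, i ≠ 1 ∧ i * i = 1 ∧ y ≠ 1 ∧ y ^ 3 = 1 ∧ i * y = y * i ∧ n * y = y * n ∧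
    n * i = i * (w * n) ∧ m * y = y * m ∧ m * w = w * (y * m)
  ten : ∃ z y n : G, z ≠ 1 ∧ z * z = 1 ∧ y ≠ 1 ∧ y ^ 5 = 1 ∧ z * y = y * z ∧ n * z = z * n ∧
    (y⁻¹ * (n * y * n⁻¹)) ^ 5 = z

theorem Rels.congr {G H : Type*} [Group G] [Group H] (e : G ≃* H) (h : Rels G) : Rels H where
  six := by
    obtain ⟨i, y, n, w, m, h1, h2, h3, h4, h5, h6, h7, h8, h9⟩ := h.six
    refine ⟨e i, e y, e n, e w, e m, fun h0 => h1 (e.map_eq_one_iff.1 h0), ?_, fun h0 => h3 (e.map_eq_one_iff.1 h0), ?_,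
      ?_, ?_, ?_, ?_, ?_⟩
    · rw [← map_mul, h2, map_one]
    · rw [← map_pow, h4, map_one]
    · rw [← map_mul, h5, map_mul]
    · rw [← map_mul, h6, map_mul]
    · rw [← map_mul, h7, map_mul, map_mul]
    · rw [← map_mul, h8, map_mul]
    · rw [← map_mul, h9, map_mul, map_mul]
  ten := by
    obtain ⟨z, y, n, h1, h2, h3, h4, h5, h6, h7⟩ := h.ten
    refine ⟨e z, e y, e n, fun h0 => h1 (e.map_eq_one_iff.1 h0), ?_, fun h0 => h3 (e.map_eq_one_iff.1 h0), ?_,
      ?_, ?_, ?_⟩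
    · rw [← map_mul, h2, map_one]
    · rw [← map_pow, h4, map_one]
    · rw [← map_mul, h5, map_mul]
    · rw [← map_mul, h6, map_mul]
    · rw [← h7]
      simp only [map_pow, map_mul, map_inv]

def iw : List ℕ := [5, 1, 7, 2, 5, 1, 4, 1, 3, 6]
def nw : List ℕ := [0, 7, 1, 3, 7]
def ww : List ℕ := [0, 0, 7, 1, 1, 7]
def mw : List ℕ := [1, 1, 3, 5, 2, 0, 0]
def gw : List ℕ := [0, 5, 7, 0, 5]
def giw : List ℕ := [4, 1, 6, 4, 1]
def kw : List ℕ := [0, 3, 7]
def kiw : List ℕ := [6, 2, 1]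

/-- relations `u = v` -/
def rl : List (List ℕ × List ℕ) := [
  (iw ++ iw, []), (iw ++ [2], [2] ++ iw), (nw ++ [2], [2] ++ nw), (nw ++ iw, iw ++ (ww ++ nw)),
  (mw ++ [2], [2] ++ mw), (mw ++ ww, ww ++ ([2] ++ mw)), (pw gw 10, []), (kw ++ pw gw 5, pw gw 5 ++ kw),
  (pw (pw giw 2 ++ (kw ++ (pw gw 2 ++ kiw))) 5, pw gw 5), (giw ++ gw, []), (kiw ++ kw, []), (pw [2] 3, [])]

theorem rl_ok : rl.all (fun p => Nat.beq (evP p.1) (evP p.2)) = true := by decide +kernel

theorem rl_lt : rl.all (fun p => (p.1.all fun y => Nat.blt y 8) && p.2.all fun y => Nat.blt y 8) = true := by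
  decide +kernel

theorem rel {u v : List ℕ} (h : (u, v) ∈ rl) : ev (lt b 4) u = ev (lt b 4) v := by
  have h1 := rl_ok
  rw [List.all_eq_true] at h1
  have h2 := rl_lt
  rw [List.all_eq_true] at h2
  have h3 := h2 _ h
  rw [Bool.and_eq_true] at h3
  apply Subtype.ext
  rw [coe_ev_b, coe_ev_b]
  apply Subtype.ext
  rw [coe_ev_bH, coe_ev_bH]
  apply Units.ext
  rw [coe_ev (all_lt8 h3.1), coe_ev (all_lt8 h3.2), Nat.eq_of_beq_eq_true (h1 _ h)]

/-- words different from the identity, with a position -/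
def rl2 : List (List ℕ × Fin 48) := [(iw, 7), (pw gw 2, 7), (pw gw 5, 10)]

theorem rl2_ok : rl2.all (fun p => (evP p.1).testBit (4 + p.2)) = true := by decide +kernel
theorem rl2_lt : rl2.all (fun p => p.1.all fun y => Nat.blt y 8) = true := by decide +kernel

theorem rel2 {u : List ℕ} {k : Fin 48} (h : (u, k) ∈ rl2) : ev (lt b 4) u ≠ 1 := by
  have h1 := rl2_ok
  rw [List.all_eq_true] at h1
  have h2 := rl2_lt
  rw [List.all_eq_true] at h2
  intro h3
  have h4 : ((ev (lt β 4) u : GL I52 (ZMod 2)) : Matrix I52 I52 (ZMod 2)) = 1 := by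
    rw [← coe_ev_bH, ← coe_ev_b, h3]
    rfl
  rw [coe_ev (all_lt8 (h2 _ h))] at h4
  exact toMat_ne k (h1 _ h) h4

theorem rels : Rels (commutator H0) where
  six := by
    refine ⟨ev (lt b 4) iw, ev (lt b 4) [2], ev (lt b 4) nw, ev (lt b 4) ww, ev (lt b 4) mw, rel2 (k := 7) (by simp [rl2]),
      ?_, ?_, ?_, ?_, ?_, ?_, ?_, ?_⟩
    · rw [← ev_append, rel (v := []) (by simp [rl]), ev_nil]
    · rw [ev_one, lt_even b 4 (by norm_num) (by norm_num)]
      exact b_ne (i := 1) (by norm_num) 3 bit2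
    · rw [← ev_pw, rel (v := []) (by simp [rl]), ev_nil]
    · rw [← ev_append, ← ev_append]; exact rel (by simp [rl])
    · rw [← ev_append, ← ev_append]; exact rel (by simp [rl])
    · rw [← ev_append, ← ev_append, ← ev_append]; exact rel (by simp [rl])
    · rw [← ev_append, ← ev_append]; exact rel (by simp [rl])
    · rw [← ev_append, ← ev_append, ← ev_append]; exact rel (by simp [rl])
  ten := by
    have hg : ev (lt b 4) gw ^ 10 = 1 := by rw [← ev_pw, rel (v := []) (by simp [rl]), ev_nil]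
    have hgi : ev (lt b 4) giw = (ev (lt b 4) gw)⁻¹ := by
      rw [eq_inv_iff_mul_eq_one, ← ev_append, rel (v := []) (by simp [rl]), ev_nil]
    have hki : ev (lt b 4) kiw = (ev (lt b 4) kw)⁻¹ := by
      rw [eq_inv_iff_mul_eq_one, ← ev_append, rel (v := []) (by simp [rl]), ev_nil]
    refine ⟨ev (lt b 4) gw ^ 5, ev (lt b 4) gw ^ 2, ev (lt b 4) kw, ?_, ?_, ?_, ?_, ?_, ?_, ?_⟩
    · rw [← ev_pw]; exact rel2 (k := 10) (by simp [rl2])
    · rw [← pow_add]; exact hg
    · rw [← ev_pw]; exact rel2 (k := 7) (by simp [rl2])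
    · rw [← pow_mul]; exact hg
    · rw [← pow_add, ← pow_add]
    · rw [← ev_pw, ← ev_append, ← ev_append]; exact rel (by simp [rl])
    · have h := rel (u := pw (pw giw 2 ++ (kw ++ (pw gw 2 ++ kiw))) 5) (v := pw gw 5) (by simp [rl])
      rw [ev_pw, ev_append, ev_append, ev_append, ev_pw, ev_pw, ev_pw, hgi, hki, inv_pow] at h
      rw [← h]
      simp only [mul_assoc]

end Cfsg.Agent.H380.RG
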