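import Cfsg.Agent.H398.RG.Base
import Cfsg.Agent.H46.Gen.A2Hom
import Cfsg.Agent.BpExc.NChev
import Cfsg.Agent.KFacts.RgdSL

/-!
# S3509: the condition on the base pair for components of type `²A_n`, `n ≥ 3`, `q` prime (helper380)

`α` a Frobenius frame automorphism, `β` an `α`-fixed root, `γ' = θ γ`, `θ γ' = γ`, `q = r` prime.

* `Tri.step` (abstract trace computation): `γ ⊥ γ'`, `⟨γ, β⟩ = ⟨γ', β⟩ = -1`, `δ = β + γ + γ'`: if `[v, x] ∈ N` for one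
  `1 ≠ x ∈ X_β^α` and all `v ∈ (X_γ X_γ')^α` and `N` is normalised by the `v`, then `X_δ^α ≤ N` and `(X_(β+γ) X_(β+γ'))^α ≤ N`;
* `Lg` : long roots, `Cfg` : the configuration, `exists_tri`, `step'`;
* `condU` : `Cond K X Y` for `X = X_β^α`, `Y = X_(-β)^α`; `condU_sl` : in terms of `c = -γ`, simply laced root systems.
-/

set_option autoImplicit false
set_option linter.unusedSectionVars false

namespace Cfsg.Agent.H380.RG

open scoped commutatorElement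

section fld

open Polynomial

variable {k : Type*} [Field k] [IsAlgClosed k] {r : ℕ} [Fact r.Prime] [CharP k r]

/-- the solutions of `u a^Q = a` -/
theorem exists_roots {Q : ℕ} (hQ1 : 1 < Q) (hQr : r ∣ Q) {u : k} (hu : u ≠ 0) :
    ∃ S : Finset k, S.card = Q ∧ ∀ a ∈ S, u * a ^ Q = a := by
  classical
  have hQ0 : ((Q : ℕ) : k) = 0 := (CharP.cast_eq_zero_iff k r Q).2 hQr
  obtain ⟨f, hf⟩ : ∃ f : k[X], f = C u * X ^ Q - X := ⟨_, rfl⟩
  have hdeg : f.natDegree = Q := by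
    rw [hf, natDegree_sub_eq_left_of_natDegree_lt]
    · rw [natDegree_C_mul_X_pow _ _ hu]
    · rw [natDegree_C_mul_X_pow _ _ hu, natDegree_X]
      exact hQ1
  have hf0 : f ≠ 0 := by
    intro h
    rw [h, natDegree_zero] at hdeg
    omega
  have hder : derivative f = -1 := by
    rw [hf, derivative_sub, derivative_C_mul, derivative_X_pow, derivative_X, hQ0, C_0, zero_mul, mul_zero, zero_sub]
  have hsep : f.Separable := by
    rw [separable_def, hder]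
    exact IsCoprime.neg_right (isCoprime_one_right)
  have hroots : f.roots.card = Q := by
    rw [← hdeg]
    exact (IsAlgClosed.splits f).natDegree_eq_card_roots.symm
  refine ⟨f.roots.toFinset, ?_, fun c hc => ?_⟩
  · rw [Multiset.toFinset_card_of_nodup (nodup_roots hsep), hroots]
  · rw [Multiset.mem_toFinset, mem_roots hf0, hf] at hc
    have h1 : (C u * X ^ Q - X : k[X]).eval c = 0 := hc
    rw [eval_sub, eval_mul, eval_C, eval_pow, eval_X, sub_eq_zero] at h1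
    exact h1

/-- an admissible parameter with a nonzero value of an additive polynomial -/
theorem exists_adm {Q : ℕ} (hQ1 : 1 < Q) (hQr : r ∣ Q) {u A : k} (hu : u ≠ 0) (hA : A ≠ 0) (B : k) :
    ∃ a, u * a ^ (Q ^ 2) = a ∧ A * a ^ Q + B * a ≠ 0 := by
  classical
  obtain ⟨S, hS, hS'⟩ := exists_roots (Q := Q ^ 2) (r := r) (by nlinarith) (Dvd.dvd.trans hQr (Dvd.intro_left (Q ^ 1) (by ring)))
    hu
  by_contra hcon
  push Not at hcon
  obtain ⟨g, hg⟩ : ∃ g : k[X], g = C A * X ^ Q + C B * X := ⟨_, rfl⟩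
  have hg0 : g ≠ 0 := by
    intro h
    have h1 : g.coeff Q = A := by
      rw [hg, coeff_add, coeff_C_mul, coeff_X_pow, if_pos rfl, coeff_C_mul, coeff_X, if_neg (by omega)]
      ring
    rw [h, coeff_zero] at h1
    exact hA h1.symm
  have hsub : S ⊆ g.roots.toFinset := by
    intro a ha
    rw [Multiset.mem_toFinset, mem_roots hg0, hg]
    change (C A * X ^ Q + C B * X : k[X]).eval a = 0
    rw [eval_add, eval_mul, eval_C, eval_pow, eval_X, eval_mul, eval_C, eval_X]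
    exact hcon a (hS' a ha)
  have h1 := Finset.card_le_card hsub
  have h2 : g.roots.toFinset.card ≤ g.natDegree := (Multiset.toFinset_card_le _).trans (card_roots' g)
  have h3 : g.natDegree ≤ Q := by
    rw [hg]
    refine natDegree_add_le_of_degree_le ((natDegree_C_mul_le _ _).trans (natDegree_X_pow_le _)) ?_
    exact (natDegree_C_mul_le _ _).trans (natDegree_X_le.trans hQ1.le)
  rw [hS] at h1
  nlinarith

omit [IsAlgClosed k] in
theorem multiple_of_fix {t t₀ c : k} (ht₀ : t₀ ≠ 0) (h : c * t ^ r = t) (h₀ : c * t₀ ^ r = t₀) :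
    ∃ n : ℤ, t = n * t₀ := by
  have hc : c ≠ 0 := by
    rintro rfl
    rw [zero_mul] at h₀
    exact ht₀ h₀.symm
  have h1 : (t / t₀) ^ r = t / t₀ := by
    rw [div_pow, div_eq_div_iff (pow_ne_zero _ ht₀) ht₀]
    have h2 : c * (t ^ r * t₀) = c * (t * t₀ ^ r) := by
      calc c * (t ^ r * t₀) = (c * t ^ r) * t₀ := by ring
        _ = t * t₀ := by rw [h]
        _ = t * (c * t₀ ^ r) := by rw [h₀]
        _ = c * (t * t₀ ^ r) := by ring
    exact mul_left_cancel₀ hc h2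
  obtain ⟨n, hn⟩ := (mem_bot_iff_intCast r k).1 ((Subfield.mem_bot_iff_pow_eq_self k r).2 h1)
  exact ⟨n, by rw [hn, div_mul_cancel₀ _ ht₀]⟩

end fld

section abs

variable {Y : Type*} [Group Y] {k : Type*} [Field k]

/-- root elements `x_γ, x_γ', x_β, x_(γ+β), x_(γ'+β), x_δ` -/
structure Tri (α : MulAut Y) (Q : ℕ) (gA gB bb uA uB dd : k → Y) where
  c : k
  c' : k
  cd : k
  e1 : k
  e2 : k
  e3 : k
  e4 : k
  hc : c ≠ 0
  hc' : c' ≠ 0
  he1 : e1 ≠ 0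
  he2 : e2 ≠ 0
  he3 : e3 ≠ 0
  he4 : e4 ≠ 0
  αA : ∀ a, α (gA a) = gB (c * a ^ Q)
  αB : ∀ a, α (gB a) = gA (c' * a ^ Q)
  αd : ∀ a, α (dd a) = dd (cd * a ^ Q)
  addD : ∀ a b, dd (a + b) = dd a * dd b
  injA : Function.Injective gA
  injU : Function.Injective uA
  injD : Function.Injective dd
  com1 : ∀ a s, ⁅gA a, bb s⁆ = uA (e1 * (a * s))
  com2 : ∀ a s, ⁅gB a, bb s⁆ = uB (e2 * (a * s))
  com3 : ∀ a s, ⁅gA a, uB s⁆ = dd (e3 * (a * s))
  com4 : ∀ a s, ⁅gB a, uA s⁆ = dd (e4 * (a * s))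
  cAB : ∀ a b, Commute (gA a) (gB b)
  cAU : ∀ a b, Commute (gA a) (uA b)
  cBU : ∀ a b, Commute (gB a) (uB b)
  cUU : ∀ a b, Commute (uA a) (uB b)
  cDA : ∀ a b, Commute (dd a) (gA b)
  cDB : ∀ a b, Commute (dd a) (gB b)
  cDU : ∀ a b, Commute (dd a) (uA b)
  cDV : ∀ a b, Commute (dd a) (uB b)

variable {α : MulAut Y} {Q : ℕ} {gA gB bb uA uB dd : k → Y}

theorem Tri.dzero (h : Tri α Q gA gB bb uA uB dd) : dd 0 = 1 := by
  have := h.addD 0 0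
  rw [add_zero] at this
  exact mul_eq_left.1 this.symm

theorem Tri.dneg (h : Tri α Q gA gB bb uA uB dd) (a : k) : dd (-a) = (dd a)⁻¹ := by
  rw [eq_inv_iff_mul_eq_one, ← h.addD, neg_add_cancel, h.dzero]

theorem Tri.dzpow (h : Tri α Q gA gB bb uA uB dd) (a : k) (n : ℤ) : dd (n * a) = dd a ^ n := by
  have h1 : ∀ m : ℕ, dd (m * a) = dd a ^ m := by
    intro m
    induction m with
    | zero => rw [Nat.cast_zero, zero_mul, pow_zero, h.dzero]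
    | succ m ih => rw [Nat.cast_succ, add_mul, one_mul, h.addD, ih, pow_succ]
  obtain ⟨m, rfl | rfl⟩ := n.eq_nat_or_neg
  · rw [Int.cast_natCast, zpow_natCast, h1]
  · rw [Int.cast_neg, Int.cast_natCast, neg_mul, h.dneg, h1, zpow_neg, zpow_natCast]

theorem comm_mul {g h x : Y} : ⁅g * h, x⁆ = g * ⁅h, x⁆ * g⁻¹ * ⁅g, x⁆ := by
  simp only [commutatorElement_def]
  group

/-- the commutator with `x_β(s)` -/
theorem Tri.first (h : Tri α Q gA gB bb uA uB dd) (a b s : k) :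
    ⁅gA a * gB b, bb s⁆ = dd (h.e3 * (a * (h.e2 * (b * s)))) * uB (h.e2 * (b * s)) * uA (h.e1 * (a * s)) := by
  rw [comm_mul, h.com1, h.com2, ← h.com3, commutatorElement_def]
  group

theorem comm_aux {D u w g x E3 E4 : Y} (h1 : ⁅g, u⁆ = E3) (h2 : ⁅x, w⁆ = E4) (h3 : Commute g w) (h4 : Commute x u)
    (d1 : Commute D g) (d2 : Commute D x) (d3 : Commute D E3) (d4 : Commute D E4) (d5 : Commute E4 u)
    (d6 : Commute E4 g) : ⁅D * u * w, g * x⁆ = E3⁻¹ * E4⁻¹ := by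
  have e1 : w * g * w⁻¹ = g := by rw [← h3.eq, mul_inv_cancel_right]
  have e2 : w * x * w⁻¹ = E4⁻¹ * x := by
    rw [← h2, commutatorElement_def]
    group
  have e3 : u * g * u⁻¹ = E3⁻¹ * g := by
    rw [← h1, commutatorElement_def]
    group
  have e4 : u * x * u⁻¹ = x := by rw [← h4.eq, mul_inv_cancel_right]
  have e5 : u * E4⁻¹ * u⁻¹ = E4⁻¹ := by rw [← (d5.inv_left).eq, mul_inv_cancel_right]
  have e6 : D * E3⁻¹ * D⁻¹ = E3⁻¹ := by rw [(d3.inv_right).eq, mul_inv_cancel_right]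
  have e7 : D * g * D⁻¹ = g := by rw [d1.eq, mul_inv_cancel_right]
  have e8 : D * E4⁻¹ * D⁻¹ = E4⁻¹ := by rw [(d4.inv_right).eq, mul_inv_cancel_right]
  have e9 : D * x * D⁻¹ = x := by rw [d2.eq, mul_inv_cancel_right]
  calc ⁅D * u * w, g * x⁆ = D * (u * ((w * g * w⁻¹) * (w * x * w⁻¹)) * u⁻¹) * D⁻¹ * (g * x)⁻¹ := by
        rw [commutatorElement_def]
        group
    _ = D * (u * (g * (E4⁻¹ * x)) * u⁻¹) * D⁻¹ * (g * x)⁻¹ := by rw [e1, e2]
    _ = D * ((u * g * u⁻¹) * (u * E4⁻¹ * u⁻¹) * (u * x * u⁻¹)) * D⁻¹ * (g * x)⁻¹ := by group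
    _ = D * ((E3⁻¹ * g) * E4⁻¹ * x) * D⁻¹ * (g * x)⁻¹ := by rw [e3, e4, e5]
    _ = (D * E3⁻¹ * D⁻¹) * (D * g * D⁻¹) * (D * E4⁻¹ * D⁻¹) * (D * x * D⁻¹) * (g * x)⁻¹ := by group
    _ = E3⁻¹ * (g * E4⁻¹) * x * (g * x)⁻¹ := by rw [e6, e7, e8, e9]; group
    _ = E3⁻¹ * (E4⁻¹ * g) * x * (g * x)⁻¹ := by rw [(d6.inv_left).eq]
    _ = E3⁻¹ * E4⁻¹ := by group

/-- the second commutator -/
theorem Tri.second (h : Tri α Q gA gB bb uA uB dd) (a b s a' b' : k) :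
    ⁅⁅gA a * gB b, bb s⁆, gA a' * gB b'⁆ =
      dd (-(h.e3 * (a' * (h.e2 * (b * s))) + h.e4 * (b' * (h.e1 * (a * s))))) := by
  rw [h.first, comm_aux (h.com3 a' _) (h.com4 b' _) (h.cAU a' _) (h.cBU b' _) (h.cDA _ _) (h.cDB _ _) ?_ ?_
    (h.cDV _ _) (h.cDA _ _), ← h.dneg, ← h.dneg, ← h.addD]
  · congr 1
    ring
  · show dd _ * dd _ = dd _ * dd _
    rw [← h.addD, ← h.addD, add_comm]
  · show dd _ * dd _ = dd _ * dd _
    rw [← h.addD, ← h.addD, add_comm]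

variable [IsAlgClosed k] {r : ℕ} [Fact r.Prime] [CharP k r]

/-- **The trace computation.** -/
theorem Tri.step (h : Tri α r gA gB bb uA uB dd) {s : k} (hs : s ≠ 0) (hbs : α (bb s) = bb s) {N : Subgroup Y}
    (hN1 : ∀ a, α (α (gA a)) = gA a → ⁅gA a * α (gA a), bb s⁆ ∈ N)
    (hN2 : ∀ a, α (α (gA a)) = gA a → ∀ n ∈ N, (gA a * α (gA a)) * n * (gA a * α (gA a))⁻¹ ∈ N) :
    (∀ t, α (dd t) = dd t → dd t ∈ N) ∧ ∀ t, α (α (uA t)) = uA t → uA t * α (uA t) ∈ N := by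
  have hr1 : 1 < r := (Fact.out : r.Prime).one_lt
  have hα2 : ∀ a, α (α (gA a)) = gA (h.c' * h.c ^ r * a ^ (r ^ 2)) := by
    intro a
    rw [h.αA, h.αB]
    congr 1
    rw [mul_pow, ← pow_mul, sq]
    ring
  have hu : h.c' * h.c ^ r ≠ 0 := mul_ne_zero h.hc' (pow_ne_zero _ h.hc)
  -- an admissible parameter
  obtain ⟨a, ha, ha1⟩ := exists_adm hr1 dvd_rfl hu (one_ne_zero (α := k)) 0
  have ha0 : a ≠ 0 := by
    rintro rfl
    apply ha1
    rw [zero_pow (by omega), mul_zero, zero_mul, add_zero]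
  have haf : α (α (gA a)) = gA a := by rw [hα2, ha]
  have hfix2 : ∀ a, α (α (gA a)) = gA a → α (gA a * α (gA a)) = gA a * α (gA a) := by
    intro a ha
    rw [map_mul, ha, h.αA]
    exact (h.cAB _ _).eq.symm
  have hA4 : -(h.e4 * (h.c * (h.e1 * (a * s)))) ≠ 0 :=
    neg_ne_zero.2 (mul_ne_zero h.he4 (mul_ne_zero h.hc (mul_ne_zero h.he1 (mul_ne_zero ha0 hs))))
  obtain ⟨a', ha', ha'1⟩ := exists_adm hr1 dvd_rfl hu hA4 (-(h.e3 * (h.e2 * (h.c * a ^ r * s))))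
  have haf' : α (α (gA a')) = gA a' := by rw [hα2, ha']
  obtain ⟨t₀, ht₀⟩ : ∃ t₀ : k, t₀ = -(h.e3 * (a' * (h.e2 * (h.c * a ^ r * s))) +
    h.e4 * (h.c * a' ^ r * (h.e1 * (a * s)))) := ⟨_, rfl⟩
  have ht₀0 : t₀ ≠ 0 := by
    rw [ht₀]
    intro h0
    apply ha'1
    rw [← h0]
    ring
  have hw : dd t₀ = ⁅⁅gA a * α (gA a), bb s⁆, gA a' * α (gA a')⁆ := by
    rw [h.αA, h.αA, h.second, ht₀]
  have hwN : dd t₀ ∈ N := by
    rw [hw, commutatorElement_def]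
    have h1 := hN1 a haf
    have h2 := hN2 a' haf' _ (N.inv_mem h1)
    have h3 := N.mul_mem h1 h2
    have e : ⁅gA a * α (gA a), bb s⁆ * (gA a' * α (gA a')) * ⁅gA a * α (gA a), bb s⁆⁻¹ * (gA a' * α (gA a'))⁻¹ =
      ⁅gA a * α (gA a), bb s⁆ * (gA a' * α (gA a') * ⁅gA a * α (gA a), bb s⁆⁻¹ * (gA a' * α (gA a'))⁻¹) := by group
    rw [e]
    exact h3
  have hwf : α (dd t₀) = dd t₀ := by
    rw [hw, map_commutatorElement, map_commutatorElement, hfix2 a haf, hfix2 a' haf', hbs]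
  have hD : ∀ t, α (dd t) = dd t → dd t ∈ N := by
    intro t ht
    rw [h.αd] at ht hwf
    obtain ⟨n, hn⟩ := multiple_of_fix (r := r) ht₀0 (h.injD ht) (h.injD hwf)
    rw [hn, h.dzpow]
    exact N.zpow_mem hwN n
  refine ⟨hD, fun t ht => ?_⟩
  obtain ⟨a, ha⟩ : ∃ a, h.e1 * (a * s) = t := ⟨h.e1⁻¹ * t * s⁻¹, by
    have := h.he1
    field_simp⟩
  have e1 : uA t = ⁅gA a, bb s⁆ := by rw [h.com1, ha]
  have haf : α (α (gA a)) = gA a := by
    have h1 := ht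
    rw [e1, map_commutatorElement, map_commutatorElement, hbs, hbs, hα2, h.com1, h.com1] at h1
    have h2 := mul_right_cancel₀ hs (mul_left_cancel₀ h.he1 (h.injU h1))
    rw [hα2, h2]
  have e2 : α (uA t) = uB (h.e2 * (h.c * a ^ r * s)) := by
    rw [e1, map_commutatorElement, hbs, h.αA, h.com2]
  have hcom : Commute (uA t) (α (uA t)) := by
    rw [e2]
    exact h.cUU _ _
  have h1 := hN1 a haf
  have e3 : ⁅gA a * α (gA a), bb s⁆ = dd (h.e3 * (a * (h.e2 * (h.c * a ^ r * s)))) * (uA t * α (uA t)) := by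
    rw [hcom.eq, e2, h.αA, h.first, ha, mul_assoc]
  obtain ⟨D, hDd⟩ : ∃ D, D = h.e3 * (a * (h.e2 * (h.c * a ^ r * s))) := ⟨_, rfl⟩
  rw [← hDd] at e3
  have h2 : α (⁅gA a * α (gA a), bb s⁆) = ⁅gA a * α (gA a), bb s⁆ := by
    rw [map_commutatorElement, hfix2 a haf, hbs]
  rw [e3, map_mul, map_mul, ht, ← hcom.eq] at h2
  have h3 := hD D (mul_right_cancel h2)
  rw [e3] at h1
  exact (N.mul_mem_cancel_left h3).1 h1

end abs

/-! ### long roots -/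

section long

open CoxeterSystem Cfsg.Agent.ChevalleyStructure.CoxeterGeom Cfsg.Agent.Tits.Roots Cfsg.Agent.Tits.Core
  Cfsg.Agent.Nodes.Reps Cfsg.Agent.Nodes.Coroot Cfsg.Agent.Nodes.SubComb

variable {I W : Type*} [Fintype I] [DecidableEq I] [Group W] {M : CoxeterMatrix I}
  (cs : CoxeterSystem M W) {A : I → I → ℤ} (h : IsCartan M A)

/-- `a` is a long root -/
def Lg (a : I → ℤ) : Prop :=
  IsRoot cs h a ∧ ∀ b, IsRoot cs h b → b ≠ a → b ≠ -a → |cpr cs h b a| ≤ 1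

variable {cs h} [Finite W]

theorem Lg.act {a : I → ℤ} (ha : Lg cs h a) (w : W) : Lg cs h (rep cs h w a) := by
  refine ⟨ha.1.act w, fun b hb h1 h2 => ?_⟩
  have e : b = rep cs h w (rep cs h w⁻¹ b) := by
    rw [← rep_mul_apply, mul_inv_cancel, map_one, Module.End.one_apply]
  rw [e, cpr_rep cs h w _ ha.1]
  refine ha.2 _ (hb.act _) (fun h3 => h1 ?_) fun h3 => h2 ?_
  · rw [e, h3]
  · rw [e, h3, map_neg]

theorem Lg.neg {a : I → ℤ} (ha : Lg cs h a) : Lg cs h (-a) := by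
  refine ⟨ha.1.neg, fun b hb h1 h2 => ?_⟩
  rw [cpr_neg_right cs h b ha.1, abs_neg]
  rw [neg_neg] at h2
  exact ha.2 b hb h2 h1

/-- the bound, in general -/
theorem Lg.le {a b : I → ℤ} (ha : Lg cs h a) (hb : IsRoot cs h b) : |cpr cs h b a| ≤ 1 ∨ b = a ∨ b = -a := by
  by_cases h1 : b = a
  · exact Or.inr (Or.inl h1)
  by_cases h2 : b = -a
  · exact Or.inr (Or.inr h2)
  exact Or.inl (ha.2 b hb h1 h2)

theorem Lg.symm {a b : I → ℤ} (ha : Lg cs h a) (hb : Lg cs h b) : cpr cs h a b = cpr cs h b a := by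
  have := Fintype.ofFinite W
  rcases ha.le hb.1 with h1 | rfl | rfl
  · rcases hb.le ha.1 with h2 | rfl | rfl
    · rw [abs_le] at h1 h2
      have e1 := cpr_pos_iff cs h a hb.1
      have e2 := cpr_pos_iff cs h b ha.1
      rw [form_comm] at e2
      have e3 := cpr_zero_iff cs h a hb.1
      have e4 := cpr_zero_iff cs h b ha.1
      rw [form_comm] at e4
      by_cases h3 : 0 < cpr cs h a b
      · have h4 := e2.2 (e1.1 h3)
        omega
      · by_cases h5 : cpr cs h a b = 0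
        · rw [h5, e4.2 (e3.1 h5)]
        · have h6 : ¬ 0 < cpr cs h b a := fun h7 => h3 (e1.2 (e2.1 h7))
          have h7 : cpr cs h b a ≠ 0 := fun h8 => h5 (e3.2 (e4.1 h8))
          omega
    · rfl
    · rw [cpr_neg cs h b hb.1, cpr_neg_right cs h b hb.1]
  · rfl
  · rw [cpr_neg_right cs h a ha.1, cpr_neg cs h a ha.1]

theorem Lg.add_root {a b : I → ℤ} (ha : Lg cs h a) (hb : IsRoot cs h b) (hab : cpr cs h b a = -1) :
    IsRoot cs h (a + b) := by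
  have h1 := isRoot_refl cs h hb ha.1
  rw [hab] at h1
  have e : b - (-1 : ℤ) • a = a + b := by module
  rwa [e] at h1

theorem Lg.add {a b : I → ℤ} (ha : Lg cs h a) (hb : Lg cs h b) (hab : cpr cs h b a = -1) : Lg cs h (a + b) := by
  obtain ⟨w, i, rfl⟩ := ha.1
  have h1 := hb.act (rfl' cs w i)
  rw [rep_rfl'_eq, hab] at h1
  have e : b - (-1 : ℤ) • rep cs h w (sr i) = rep cs h w (sr i) + b := by module
  rwa [e] at h1

theorem Lg.no_comb {a b : I → ℤ} (ha : Lg cs h a) (hb : IsRoot cs h b) (hab : 0 ≤ cpr cs h b a) {m n : ℕ}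
    (hm : 0 < m) (hn : 0 < n) : ¬ IsRoot cs h ((m : ℤ) • a + (n : ℤ) • b) := by
  intro hv
  have h1 : cpr cs h ((m : ℤ) • a + (n : ℤ) • b) a = m * 2 + n * cpr cs h b a := by
    rw [cpr_add cs h _ _ ha.1, cpr_smul cs h _ _ ha.1, cpr_smul cs h _ _ ha.1, cpr_self cs h ha.1]
  have h2 : (0 : ℤ) ≤ n * cpr cs h b a := mul_nonneg (by positivity) hab
  have h3 : (1 : ℤ) ≤ m := by exact_mod_cast hm
  rcases ha.le hv with h4 | h4 | h4
  · rw [h1, abs_le] at h4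
    omega
  · rw [h4, cpr_self cs h ha.1] at h1
    have h5 : (m : ℤ) = 1 := by omega
    rw [h5, one_smul] at h4
    have h6 : (n : ℤ) • b = 0 := by
      have := add_left_cancel (h4.trans (add_zero a).symm)
      exact this
    rcases smul_eq_zero.1 h6 with h7 | h7
    · have : (n : ℤ) ≠ 0 := by exact_mod_cast hn.ne'
      exact this h7
    · exact hb.ne_zero h7
  · rw [h4, cpr_neg cs h a ha.1, cpr_self cs h ha.1] at h1
    omega

end long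

/-! ### the Chevalley group -/

section chev

open CoxeterSystem Cfsg Cfsg.Lie Cfsg.Lie.ChevalleyDatum
open Cfsg.Agent.ChevalleyStructure Cfsg.Agent.ChevalleyStructure.Elts Cfsg.Agent.ChevalleyStructure.CoxeterGeom
  Cfsg.Agent.ChevalleyStructure.CoxeterGeomTypes Cfsg.Agent.ChevalleyStructure.NPerm
open Cfsg.Agent.Tits.Roots Cfsg.Agent.Tits.Core Cfsg.Agent.Nodes Cfsg.Agent.Nodes.Reps Cfsg.Agent.Nodes.BNOf
  Cfsg.Agent.Nodes.RGDChev Cfsg.Agent.Nodes.Coroot Cfsg.Agent.Nodes.SubComb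
open Cfsg.Agent.KFacts.RgdField Cfsg.Agent.KFacts.RgdChevCoord
open Cfsg.Agent.H46.Gen (Rt Pr NN xc_br xc_commute xc_add xc_zero xc_neg NN_sq NN_swap NN_neg)

variable {D : ChevalleyDatum} {l : ℕ} {M : CoxeterMatrix (Fin l)} (hp : IsType D l M) {W : Type*} [Group W]
  (cs : CoxeterSystem M W) {k : Type*} [Field k]

include cs in
theorem rt_iff (v : Fin l → ℤ) : Rt D l v ↔ IsRoot cs hp.isCartan v := (isRoot_iff hp cs v).symm

include hp cs in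
theorem pr_of {a b : Fin l → ℤ} (ha : Lg cs hp.isCartan a) (hb : Lg cs hp.isCartan b)
    (hab : cpr cs hp.isCartan b a = -1) : Pr D l a b := by
  have := finite_W hp cs
  have hba : cpr cs hp.isCartan a b = -1 := by rw [ha.symm hb, hab]
  have no : ∀ {v : Fin l → ℤ} {c : Fin l → ℤ} (_ : Lg cs hp.isCartan c), 3 ≤ |cpr cs hp.isCartan v c| → ¬ Rt D l v := by
    intro v c hc h1 h2
    rw [rt_iff hp cs] at h2
    rcases hc.le h2 with h3 | h3 | h3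
    · omega
    · rw [h3, cpr_self _ _ hc.1] at h1
      norm_num at h1
    · rw [h3, cpr_neg _ _ _ hc.1, cpr_self _ _ hc.1] at h1
      norm_num at h1
  have hs : IsRoot cs hp.isCartan (a + b) := ha.add_root hb.1 hab
  refine ⟨(rt_iff hp cs _).2 ha.1, (rt_iff hp cs _).2 hb.1, (rt_iff hp cs _).2 hs, ?_, ?_, ?_⟩
  · apply no ha
    have e : b - a = b + -a := by module
    rw [e, cpr_add _ _ _ _ ha.1, cpr_neg _ _ _ ha.1, cpr_self _ _ ha.1, hab]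
    norm_num
  · apply no ha
    rw [cpr_add _ _ _ _ ha.1, cpr_smul _ _ _ _ ha.1, cpr_self _ _ ha.1, hab]
    norm_num
  · apply no hb
    rw [cpr_add _ _ _ _ hb.1, cpr_smul _ _ _ _ hb.1, cpr_self _ _ hb.1, hba]
    norm_num

include cs in
theorem comm_of {a b : Fin l → ℤ} (ha : Lg cs hp.isCartan a) (hb : IsRoot cs hp.isCartan b)
    (hab : 0 ≤ cpr cs hp.isCartan b a) (t u : k) : Commute (xc hp a t) (xc hp b u) := by
  have := finite_W hp cs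
  refine xc_commute hp ((rt_iff hp cs _).2 ha.1) ((rt_iff hp cs _).2 hb) ?_ (Or.inr fun m n hm hn h1 => ?_) t u
  · rintro rfl
    rw [cpr_neg _ _ _ ha.1, cpr_self _ _ ha.1] at hab
    norm_num at hab
  · have h2 : ¬ IsRoot cs hp.isCartan ((m : ℤ) • a + (n : ℤ) • b) := ha.no_comb hb hab hm hn
    exact h2 ((rt_iff hp cs _).1 h1)

/-- the configuration of the roots `β, γ, γ'` -/
structure Cfg (cs : CoxeterSystem M W) (β γ γ' : Fin l → ℤ) : Prop where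
  lb : Lg cs hp.isCartan β
  lg : Lg cs hp.isCartan γ
  lg' : Lg cs hp.isCartan γ'
  bg : cpr cs hp.isCartan β γ = -1
  bg' : cpr cs hp.isCartan β γ' = -1
  gg : cpr cs hp.isCartan γ γ' = 0

variable {hp cs} {β γ γ' : Fin l → ℤ} (C : Cfg hp cs β γ γ')

include C

theorem Cfg.gb : cpr cs hp.isCartan γ β = -1 := by
  have := finite_W hp cs
  rw [C.lg.symm C.lb, C.bg]

theorem Cfg.gb' : cpr cs hp.isCartan γ' β = -1 := by
  have := finite_W hp cs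
  rw [C.lg'.symm C.lb, C.bg']

theorem Cfg.gg' : cpr cs hp.isCartan γ' γ = 0 := by
  have := finite_W hp cs
  rw [C.lg'.symm C.lg, C.gg]

theorem Cfg.swap : Cfg hp cs β γ' γ := ⟨C.lb, C.lg', C.lg, C.bg', C.bg, C.gg'⟩

theorem Cfg.neg : Cfg hp cs (-β) (-γ) (-γ') := by
  have := finite_W hp cs
  refine ⟨C.lb.neg, C.lg.neg, C.lg'.neg, ?_, ?_, ?_⟩
  · rw [cpr_neg_right _ _ _ C.lg.1, cpr_neg _ _ _ C.lg.1, C.bg]; norm_num
  · rw [cpr_neg_right _ _ _ C.lg'.1, cpr_neg _ _ _ C.lg'.1, C.bg']; norm_num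
  · rw [cpr_neg_right _ _ _ C.lg'.1, cpr_neg _ _ _ C.lg'.1, C.gg]; norm_num

theorem Cfg.lu : Lg cs hp.isCartan (γ + β) := by
  have := finite_W hp cs
  exact C.lg.add C.lb C.bg

theorem Cfg.lu' : Lg cs hp.isCartan (γ' + β) := by
  have := finite_W hp cs
  exact C.lg'.add C.lb C.bg'

theorem Cfg.ug : cpr cs hp.isCartan (γ' + β) γ = -1 := by
  have := finite_W hp cs
  rw [cpr_add _ _ _ _ C.lg.1, C.gg', C.bg]; norm_num

theorem Cfg.ug' : cpr cs hp.isCartan (γ + β) γ' = -1 := C.swap.ug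

theorem Cfg.ld : Lg cs hp.isCartan (γ + (γ' + β)) := by
  have := finite_W hp cs
  exact C.lg.add C.lu' C.ug

theorem Cfg.uu : cpr cs hp.isCartan (γ + β) (γ' + β) = 0 := by
  have := finite_W hp cs
  rw [cpr_add _ _ _ _ C.lu'.1, C.lg.symm C.lu', C.lb.symm C.lu', C.ug, cpr_add _ _ _ _ C.lb.1, C.gb', cpr_self _ _ C.lb.1]
  norm_num

/-- the configuration at `δ` -/
theorem Cfg.dn : Cfg hp cs (γ + (γ' + β)) (-γ) (-γ') := by
  have := finite_W hp cs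
  refine ⟨C.ld, C.lg.neg, C.lg'.neg, ?_, ?_, C.neg.gg⟩
  · rw [cpr_neg_right _ _ _ C.lg.1, cpr_add _ _ _ _ C.lg.1, cpr_self _ _ C.lg.1, C.ug]; norm_num
  · rw [cpr_neg_right _ _ _ C.lg'.1, cpr_add _ _ _ _ C.lg'.1, C.gg, cpr_add _ _ _ _ C.lg'.1, cpr_self _ _ C.lg'.1, C.bg']
    norm_num

/-- the configuration at `-β` -/
theorem Cfg.bn : Cfg hp cs (-β) (γ + β) (γ' + β) := by
  have := finite_W hp cs
  have e1 : cpr cs hp.isCartan (-β) (γ + β) = -1 := by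
    rw [C.lb.neg.symm C.lu, cpr_neg_right _ _ _ C.lb.1, cpr_add _ _ _ _ C.lb.1, C.gb, cpr_self _ _ C.lb.1]; norm_num
  have e2 : cpr cs hp.isCartan (-β) (γ' + β) = -1 := by
    rw [C.lb.neg.symm C.lu', cpr_neg_right _ _ _ C.lb.1, cpr_add _ _ _ _ C.lb.1, C.gb', cpr_self _ _ C.lb.1]; norm_num
  exact ⟨C.lb.neg, C.lu, C.lu', e1, e2, C.uu⟩

/-- the configuration at `-δ` -/
theorem Cfg.dm : Cfg hp cs (-(γ + (γ' + β))) (γ + β) (γ' + β) := by
  have := finite_W hp cs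
  have e : -(γ + (γ' + β)) = -(γ + β) + -γ' := by module
  have e' : -(γ + (γ' + β)) = -(γ' + β) + -γ := by module
  refine ⟨C.ld.neg, C.lu, C.lu', ?_, ?_, C.uu⟩
  · rw [e, cpr_add _ _ _ _ C.lu.1, cpr_neg _ _ _ C.lu.1, cpr_neg _ _ _ C.lu.1, cpr_self _ _ C.lu.1, C.lg'.symm C.lu, C.ug']
    norm_num
  · rw [e', cpr_add _ _ _ _ C.lu'.1, cpr_neg _ _ _ C.lu'.1, cpr_neg _ _ _ C.lu'.1, cpr_self _ _ C.lu'.1, C.lg.symm C.lu', C.ug]
    norm_num

end chev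

section final

open CoxeterSystem Cfsg Cfsg.Lie Cfsg.Lie.ChevalleyDatum
open Cfsg.Agent.ChevalleyStructure Cfsg.Agent.ChevalleyStructure.Elts Cfsg.Agent.ChevalleyStructure.CoxeterGeom
  Cfsg.Agent.ChevalleyStructure.CoxeterGeomTypes Cfsg.Agent.ChevalleyStructure.NPerm
open Cfsg.Agent.Tits.Roots Cfsg.Agent.Tits.Core Cfsg.Agent.Nodes Cfsg.Agent.Nodes.Reps Cfsg.Agent.Nodes.BNOf
  Cfsg.Agent.Nodes.RGDChev Cfsg.Agent.Nodes.Coroot Cfsg.Agent.Nodes.SubComb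
open Cfsg.Agent.KFacts.RgdField Cfsg.Agent.KFacts.RgdChevCoord
open Cfsg.Agent.H46.Gen (Rt Pr NN xc_br xc_commute xc_add xc_zero xc_neg NN_sq NN_swap NN_neg)
open Cfsg.Agent.BpExc.Fr Cfsg.Agent.BpExc.LangFr Cfsg.Agent.BpExc.HX
open Cfsg.Agent.H398.RG (Cond MK le_MK conj_MK)

universe u

variable {D : ChevalleyDatum} {l : ℕ} {M : CoxeterMatrix (Fin l)} {hp : IsType D l M} {W : Type*} [Group W]
  {cs : CoxeterSystem M W} {k : Type u} [Field k]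

theorem xc_inj' {v : Fin l → ℤ} (hv : IsRoot cs hp.isCartan v) : Function.Injective (xc (K := k) hp v) := by
  obtain ⟨r, hr, rfl⟩ := (isRoot_iff hp cs v).1 hv
  exact xc_inj hp hr

theorem mem_XX_iff {v : Fin l → ℤ} (hv : IsRoot cs hp.isCartan v) {y : ↥(D.group k)} :
    y ∈ XX D l k v ↔ ∃ t, y = xc hp v t := by
  obtain ⟨r, hr, rfl⟩ := (isRoot_iff hp cs v).1 hv
  exact mem_XX_xc hp hr

include hp in
theorem NN_ne {a b : Fin l → ℤ} (h : Pr D l a b) : (NN D l a b : k) ≠ 0 := by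
  intro h0
  have h1 := congrArg (Int.cast : ℤ → k) (NN_sq hp h)
  rw [Int.cast_mul, h0, zero_mul, Int.cast_one] at h1
  exact zero_ne_one h1

theorem commute_left {a b : Fin l → ℤ} (ha : Lg cs hp.isCartan a) (hb : Lg cs hp.isCartan b)
    (hab : cpr cs hp.isCartan b a = -1) (t u : k) : Commute (xc hp a t) (xc hp (a + b) u) := by
  have := finite_W hp cs
  refine comm_of hp cs ha (ha.add_root hb.1 hab) ?_ t u
  rw [cpr_add _ _ _ _ ha.1, cpr_self _ _ ha.1, hab]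
  norm_num

variable {α : MulAut ↥(D.group k)} {θ : (Fin l → ℤ) ≃+ (Fin l → ℤ)} {r e : ℕ} [Fact r.Prime] [CharP k r]
  {β γ γ' : Fin l → ℤ}

theorem exists_tri [IsAlgClosed k] (hσ : IsFrob r e α) (he : r ^ e = r)
    (F : Fr cs hp.isCartan (TT D k) (XX D l k) α θ) (C : Cfg hp cs β γ γ') (h1 : θ β = β) (h2 : θ γ = γ') (h3 : θ γ' = γ) :
    Nonempty (Tri α r (xc hp γ) (xc hp γ') (xc hp β) (xc (K := k) hp (γ + β)) (xc hp (γ' + β)) (xc hp (γ + (γ' + β)))) := by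
  have := finite_W hp cs
  obtain ⟨c, hc, hc1⟩ := fr_xc hp cs hσ F C.lg.1
  obtain ⟨c', hc', hc1'⟩ := fr_xc hp cs hσ F C.lg'.1
  obtain ⟨cd, hcd, hcd1⟩ := fr_xc hp cs hσ F C.ld.1
  have hθd : θ (γ + (γ' + β)) = γ + (γ' + β) := by
    rw [map_add, map_add, h1, h2, h3]
    abel
  simp only [he, h2] at hc1
  simp only [he, h3] at hc1'
  simp only [he, hθd] at hcd1
  have p1 : Pr D l γ β := pr_of hp cs C.lg C.lb C.bg
  have p2 : Pr D l γ' β := pr_of hp cs C.lg' C.lb C.bg'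
  have p3 : Pr D l γ (γ' + β) := pr_of hp cs C.lg C.lu' C.ug
  have p4 : Pr D l γ' (γ + β) := pr_of hp cs C.lg' C.lu C.ug'
  have ed : γ' + (γ + β) = γ + (γ' + β) := by abel
  refine ⟨{ c := c, c' := c', cd := cd, e1 := (NN D l γ β : k), e2 := (NN D l γ' β : k), e3 := (NN D l γ (γ' + β) : k),
            e4 := (NN D l γ' (γ + β) : k), hc := hc, hc' := hc', he1 := NN_ne (hp := hp) p1, he2 := NN_ne (hp := hp) p2, he3 := NN_ne (hp := hp) p3,
            he4 := NN_ne (hp := hp) p4, αA := hc1, αB := hc1', αd := hcd1, addD := xc_add hp _, injA := xc_inj' C.lg.1,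
            injU := xc_inj' C.lu.1, injD := xc_inj' C.ld.1, com1 := xc_br hp p1, com2 := xc_br hp p2,
            com3 := xc_br hp p3, com4 := ?_, cAB := ?_, cAU := ?_, cBU := ?_, cUU := ?_, cDA := ?_, cDB := ?_,
            cDU := ?_, cDV := ?_ }⟩
  · intro a s
    rw [xc_br hp p4, ed]
  · intro a b
    exact comm_of hp cs C.lg C.lg'.1 C.gg'.ge a b
  · intro a b
    exact commute_left (hp := hp) C.lg C.lb C.bg a b
  · intro a b
    exact commute_left (hp := hp) C.lg' C.lb C.bg' a b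
  · intro a b
    exact (comm_of hp cs C.lu' C.lu.1 C.uu.ge b a).symm
  · intro a b
    exact (commute_left (hp := hp) C.lg C.lu' C.ug b a).symm
  · intro a b
    rw [← ed]
    exact (commute_left (hp := hp) C.lg' C.lu C.ug' b a).symm
  · intro a b
    have h4 := commute_left (hp := hp) (k := k) C.lu C.lg' (by rw [C.lg'.symm C.lu, C.ug']) b a
    have e5 : γ + β + γ' = γ + (γ' + β) := by abel
    rw [e5] at h4
    exact h4.symm
  · intro a b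
    have h4 := commute_left (hp := hp) (k := k) C.lu' C.lg (by rw [C.lg.symm C.lu', C.ug]) b a
    have e5 : γ' + β + γ = γ + (γ' + β) := by abel
    rw [e5] at h4
    exact h4.symm

/-- the step for subgroups -/
theorem step' [IsAlgClosed k] (hσ : IsFrob r e α) (he : r ^ e = r)
    (F : Fr cs hp.isCartan (TT D k) (XX D l k) α θ) (C : Cfg hp cs β γ γ') (h1 : θ β = β) (h2 : θ γ = γ') (h3 : θ γ' = γ)
    {x : ↥(D.group k)} (hx : x ∈ XX D l k β) (hx1 : x ≠ 1) (hxα : α x = x) {N : Subgroup ↥(D.group k)}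
    (hN1 : ∀ g ∈ XX D l k γ, α (α g) = g → ⁅g * α g, x⁆ ∈ N)
    (hN2 : ∀ g ∈ XX D l k γ, α (α g) = g → ∀ n ∈ N, (g * α g) * n * (g * α g)⁻¹ ∈ N) :
    (∀ d ∈ XX D l k (γ + (γ' + β)), α d = d → d ∈ N) ∧ ∀ u ∈ XX D l k (γ + β), α (α u) = u → u * α u ∈ N := by
  obtain ⟨T⟩ := exists_tri hσ he F C h1 h2 h3
  obtain ⟨s, rfl⟩ := (mem_XX_iff (hp := hp) C.lb.1).1 hx
  have hs : s ≠ 0 := by
    rintro rfl
    exact hx1 (xc_zero hp β)
  obtain ⟨h4, h5⟩ := T.step hs hxα (N := N) (fun a ha => hN1 _ ((mem_XX_iff (hp := hp) C.lg.1).2 ⟨a, rfl⟩) ha)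
    fun a ha => hN2 _ ((mem_XX_iff (hp := hp) C.lg.1).2 ⟨a, rfl⟩) ha
  constructor
  · intro d hd hd1
    obtain ⟨t, rfl⟩ := (mem_XX_iff (hp := hp) C.ld.1).1 hd
    exact h4 t hd1
  · intro u hu hu1
    obtain ⟨t, rfl⟩ := (mem_XX_iff (hp := hp) C.lu.1).1 hu
    exact h5 t hu1

/-- the step for a subgroup containing `x` -/
theorem step'' [IsAlgClosed k] (hσ : IsFrob r e α) (he : r ^ e = r)
    (F : Fr cs hp.isCartan (TT D k) (XX D l k) α θ) (C : Cfg hp cs β γ γ') (h1 : θ β = β) (h2 : θ γ = γ') (h3 : θ γ' = γ)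
    {x : ↥(D.group k)} (hx : x ∈ XX D l k β) (hx1 : x ≠ 1) (hxα : α x = x) {N : Subgroup ↥(D.group k)} (hxN : x ∈ N)
    (hN2 : ∀ g ∈ XX D l k γ, α (α g) = g → ∀ n ∈ N, (g * α g) * n * (g * α g)⁻¹ ∈ N) :
    (∀ d ∈ XX D l k (γ + (γ' + β)), α d = d → d ∈ N) ∧ ∀ u ∈ XX D l k (γ + β), α (α u) = u → u * α u ∈ N :=
  step' hσ he F C h1 h2 h3 hx hx1 hxα
    (fun g hg hg1 => by
      rw [commutatorElement_def]
      exact N.mul_mem (hN2 g hg hg1 x hxN) (N.inv_mem hxN)) hN2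

/-- there are nontrivial fixed elements -/
theorem exists_fixed_xc [IsAlgClosed k] (hσ : IsFrob r e α) (he : r ^ e = r)
    (F : Fr cs hp.isCartan (TT D k) (XX D l k) α θ) {a : Fin l → ℤ} (ha : IsRoot cs hp.isCartan a) (h : θ a = a) :
    ∃ x ∈ XX D l k a, x ≠ 1 ∧ α x = x := by
  obtain ⟨c, hc, hc1⟩ := fr_xc hp cs hσ F ha
  simp only [he, h] at hc1
  obtain ⟨S, hS, hS'⟩ := exists_roots (Q := r) (r := r) (Fact.out : r.Prime).one_lt dvd_rfl hc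
  obtain ⟨t, htS, ht0⟩ : ∃ t ∈ S, t ≠ 0 := by
    by_contra hcon
    push Not at hcon
    have h1 : S ⊆ {0} := fun t ht => by rw [Finset.mem_singleton]; exact hcon t ht
    have h2 := Finset.card_le_card h1
    rw [hS, Finset.card_singleton] at h2
    exact absurd h2 (not_le.2 (Fact.out : r.Prime).one_lt)
  refine ⟨xc hp a t, (mem_XX_iff (hp := hp) ha).2 ⟨t, rfl⟩, fun h3 => ht0 ?_, ?_⟩
  · apply xc_inj' (hp := hp) ha
    rw [h3, xc_zero hp]
  · rw [hc1, hS' t htS]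

/-- **(U)**: the condition on the base pair for components with `γ ⊥ θγ`. -/
theorem condU [IsAlgClosed k] (hσ : IsFrob r e α) (he : r ^ e = r)
    (F : Fr cs hp.isCartan (TT D k) (XX D l k) α θ) (C : Cfg hp cs β γ γ') (h1 : θ β = β) (h2 : θ γ = γ') (h3 : θ γ' = γ)
    {K X₀ Y₀ : Subgroup ↥(D.group k)} (hX₀ : ∀ u, u ∈ X₀ ↔ u ∈ XX D l k β ∧ α u = u)
    (hY₀ : ∀ u ∈ Y₀, u ∈ XX D l k (-β) ∧ α u = u) (hY1 : Y₀ ≠ ⊥) (hYM : Y₀ ≤ MK K X₀)
    (hK1 : ∀ g ∈ XX D l k γ, α (α g) = g → g * α g ∈ K) (hK2 : ∀ g ∈ XX D l k (-γ), α (α g) = g → g * α g ∈ K)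
    (hK3 : ∀ g ∈ XX D l k (γ + β), α (α g) = g → g * α g ∈ K) : Cond K X₀ Y₀ := by
  have := finite_W hp cs
  have n1 : θ (-β) = -β := by rw [map_neg, h1]
  have n2 : θ (-γ) = -γ' := by rw [map_neg, h2]
  have n3 : θ (-γ') = -γ := by rw [map_neg, h3]
  have n4 : θ (γ + β) = γ' + β := by rw [map_add, h1, h2]
  have n5 : θ (γ' + β) = γ + β := by rw [map_add, h1, h3]
  have n6 : θ (γ + (γ' + β)) = γ + (γ' + β) := by
    rw [map_add, map_add, h1, h2, h3]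
    abel
  have n7 : θ (-(γ + (γ' + β))) = -(γ + (γ' + β)) := by rw [map_neg, n6]
  have hMK : ∀ g : ↥(D.group k), g ∈ K → ∀ n ∈ MK K X₀, g * n * g⁻¹ ∈ MK K X₀ := fun g hg n hn => conj_MK hg hn
  -- fixed elements
  obtain ⟨x₁, hx₁, hx₁1, hx₁α⟩ := exists_fixed_xc (hp := hp) hσ he F C.lb.1 h1
  obtain ⟨d₁, hd₁, hd₁1, hd₁α⟩ := exists_fixed_xc (hp := hp) hσ he F C.ld.1 n6
  obtain ⟨z₁, hz₁, hz₁1, hz₁α⟩ := exists_fixed_xc (hp := hp) hσ he F C.ld.neg.1 n7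
  obtain ⟨y₁, hy₁Y, hy₁1⟩ : ∃ y ∈ Y₀, y ≠ 1 := by
    by_contra hcon
    push Not at hcon
    exact hY1 ((Subgroup.eq_bot_iff_forall _).2 hcon)
  obtain ⟨hy₁, hy₁α⟩ := hY₀ y₁ hy₁Y
  have hx₁M : x₁ ∈ MK K X₀ := le_MK K X₀ ((hX₀ x₁).2 ⟨hx₁, hx₁α⟩)
  have hy₁M : y₁ ∈ MK K X₀ := hYM hy₁Y
  have v1 : γ + β + -β = γ := by abel
  have v2 : -γ + (-γ' + -β) = -(γ + (γ' + β)) := by abel
  have v3 : γ + β + -(γ + (γ' + β)) = -γ' := by abel
  have v4 : γ + β + (γ' + β + -(γ + (γ' + β))) = β := by abel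
  have v5 : -γ + (-γ' + (γ + (γ' + β))) = β := by abel
  -- the elements of `M`
  obtain ⟨-, uM⟩ := step'' hσ he F C h1 h2 h3 hx₁ hx₁1 hx₁α hx₁M fun g hg hg1 => hMK _ (hK1 g hg hg1)
  obtain ⟨-, gM⟩ := step'' hσ he F C.bn n1 n4 n5 hy₁ hy₁1 hy₁α hy₁M fun g hg hg1 => hMK _ (hK3 g hg hg1)
  rw [v1] at gM
  obtain ⟨dM, -⟩ := step'' hσ he F C.neg n1 n2 n3 hy₁ hy₁1 hy₁α hy₁M fun g hg hg1 => hMK _ (hK2 g hg hg1)
  rw [v2] at dM
  obtain ⟨-, gM'⟩ := step'' hσ he F C.dm n7 n4 n5 hz₁ hz₁1 hz₁α (dM z₁ hz₁ hz₁α)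
    fun g hg hg1 => hMK _ (hK3 g hg hg1)
  rw [v3] at gM'
  have gnM : ∀ g ∈ XX D l k (-γ), α (α g) = g → g * α g ∈ MK K X₀ := by
    intro g hg hg1
    have h4 : α g ∈ XX D l k (-γ') := by
      have := (F.map (-γ) C.lg.neg.1 g).2 hg
      rwa [n2] at this
    have h5 := gM' (α g) h4 (by rw [hg1])
    rw [hg1] at h5
    obtain ⟨a, ha⟩ := (mem_XX_iff (hp := hp) C.lg.neg.1).1 hg
    obtain ⟨b, hb⟩ := (mem_XX_iff (hp := hp) C.lg'.neg.1).1 h4
    have h6 : Commute (xc hp (-γ) a) (xc hp (-γ') b) := comm_of hp cs C.lg.neg C.lg'.neg.1 C.neg.gg'.ge a b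
    rw [← ha, ← hb] at h6
    rw [h6.eq]
    exact h5
  -- the normal subgroup
  intro N hNM hN hY
  suffices hsuff : ∀ u ∈ XX D l k β, α u = u → u ∈ N from fun u hu => hsuff u ((hX₀ u).1 hu).1 ((hX₀ u).1 hu).2
  obtain ⟨x, hxX, n, hn, hy⟩ := hY y₁ hy₁Y
  obtain ⟨hx, hxα⟩ := (hX₀ x).1 hxX
  by_cases hx1 : x = 1
  · rw [hx1, one_mul] at hy
    have hyN : y₁ ∈ N := by rw [hy]; exact hn
    obtain ⟨dN, -⟩ := step'' hσ he F C.neg n1 n2 n3 hy₁ hy₁1 hy₁α hyN fun g hg hg1 => hN _ (gnM g hg hg1)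
    rw [v2] at dN
    obtain ⟨bN, -⟩ := step'' hσ he F C.dm n7 n4 n5 hz₁ hz₁1 hz₁α (dN z₁ hz₁ hz₁α)
      fun g hg hg1 => hN _ (uM g hg hg1)
    rw [v4] at bN
    exact bN
  · have hcomm : ∀ g ∈ XX D l k γ, (g * α g) * y₁ = y₁ * (g * α g) := by
      intro g hg
      have h4 : α g ∈ XX D l k γ' := by
        have := (F.map γ C.lg.1 g).2 hg
        rwa [h2] at this
      obtain ⟨a, ha⟩ := (mem_XX_iff (hp := hp) C.lg.1).1 hg
      obtain ⟨b, hb⟩ := (mem_XX_iff (hp := hp) C.lg'.1).1 h4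
      obtain ⟨c, hc⟩ := (mem_XX_iff (hp := hp) C.lb.neg.1).1 hy₁
      have h6 : Commute (xc hp γ a) (xc hp (-β) c) := comm_of hp cs C.lg C.lb.neg.1 (by
        rw [cpr_neg _ _ _ C.lg.1, C.bg]; norm_num) a c
      have h7 : Commute (xc hp γ' b) (xc hp (-β) c) := comm_of hp cs C.lg' C.lb.neg.1 (by
        rw [cpr_neg _ _ _ C.lg'.1, C.bg']; norm_num) b c
      rw [← ha, ← hc] at h6
      rw [← hb, ← hc] at h7
      exact (h6.mul_left h7).eq
    obtain ⟨dN, -⟩ := step' hσ he F C h1 h2 h3 hx hx1 hxα (N := N) (fun g hg hg1 => by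
      have h4 := gM g hg hg1
      have h5 := hcomm g hg
      have h6 : x = y₁ * n⁻¹ := by rw [hy]; group
      rw [h6, commutatorElement_def]
      have h7 : g * α g * (y₁ * n⁻¹) * (g * α g)⁻¹ * (y₁ * n⁻¹)⁻¹ =
          y₁ * (((g * α g) * n⁻¹ * (g * α g)⁻¹) * n) * y₁⁻¹ := by
        calc g * α g * (y₁ * n⁻¹) * (g * α g)⁻¹ * (y₁ * n⁻¹)⁻¹ =
            ((g * α g) * y₁) * n⁻¹ * (g * α g)⁻¹ * n * y₁⁻¹ := by group
          _ = (y₁ * (g * α g)) * n⁻¹ * (g * α g)⁻¹ * n * y₁⁻¹ := by rw [h5]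
          _ = _ := by group
      rw [h7]
      exact hN y₁ hy₁M _ (N.mul_mem (hN _ h4 _ (N.inv_mem hn)) hn)) fun g hg hg1 => hN _ (gM g hg hg1)
    obtain ⟨bN, -⟩ := step'' hσ he F C.dn n6 n2 n3 hd₁ hd₁1 hd₁α (dN d₁ hd₁ hd₁α)
      fun g hg hg1 => hN _ (gnM g hg hg1)
    rw [v5] at bN
    exact bN

theorem lg_of_sl (hs : Cfsg.Agent.KFacts.RgdSL.SL cs hp.isCartan) {a : Fin l → ℤ} (ha : IsRoot cs hp.isCartan a) :
    Lg cs hp.isCartan a := by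
  have := finite_W hp cs
  exact ⟨ha, fun b hb h1 h2 => abs_le.2 (hs.abs_le hb ha h1 h2)⟩

/-- **(U)**, simply laced. -/
theorem condU_sl [IsAlgClosed k] (hs : Cfsg.Agent.KFacts.RgdSL.SL cs hp.isCartan) (hσ : IsFrob r e α) (he : r ^ e = r)
    (F : Fr cs hp.isCartan (TT D k) (XX D l k) α θ) {c : Fin l → ℤ} (hβ : IsRoot cs hp.isCartan β)
    (hc : IsRoot cs hp.isCartan c) (hcβ : cpr cs hp.isCartan c β = 1) (hcβ' : cpr cs hp.isCartan (θ c) β = 1)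
    (h1 : θ β = β) (h2 : θ (θ c) = c)
    (h3 : cpr cs hp.isCartan c (θ c) = 0)
    {K X₀ Y₀ : Subgroup ↥(D.group k)} (hX₀ : ∀ u, u ∈ X₀ ↔ u ∈ XX D l k β ∧ α u = u)
    (hY₀ : ∀ u ∈ Y₀, u ∈ XX D l k (-β) ∧ α u = u) (hY1 : Y₀ ≠ ⊥) (hYM : Y₀ ≤ MK K X₀)
    (hK : ∀ a, (a = c ∨ a = -c ∨ a = β - c) → ∀ g ∈ XX D l k a, α (α g) = g → g * α g ∈ K) : Cond K X₀ Y₀ := by
  have := finite_W hp cs
  have Lβ : Lg cs hp.isCartan β := lg_of_sl (hp := hp) hs hβ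
  have Lc : Lg cs hp.isCartan c := lg_of_sl (hp := hp) hs hc
  have Lc' : Lg cs hp.isCartan (θ c) := lg_of_sl (hp := hp) hs ((F.root c).2 hc)
  have C : Cfg hp cs β (-c) (-θ c) := by
    refine ⟨Lβ, Lc.neg, Lc'.neg, ?_, ?_, ?_⟩
    · rw [cpr_neg_right _ _ _ hc, Lβ.symm Lc, hcβ]
    · rw [cpr_neg_right _ _ _ Lc'.1, Lβ.symm Lc', hcβ']
    · rw [cpr_neg_right _ _ _ Lc'.1, cpr_neg _ _ _ Lc'.1, h3]; norm_num
  have e2 : -c + β = β - c := by abel
  refine condU hσ he F C h1 (map_neg θ c) (by rw [map_neg, h2]) hX₀ hY₀ hY1 hYM (hK _ (Or.inr (Or.inl rfl))) ?_ ?_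
  · rw [neg_neg]
    exact hK _ (Or.inl rfl)
  · rw [e2]
    exact hK _ (Or.inr (Or.inr rfl))

end final

end Cfsg.Agent.H380.RG
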