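import Cfsg.Agent.H380.RG.UZ
import Cfsg.Agent.H167.EX.Root
import Cfsg.Agent.H3.OT.Weyl
import Cfsg.Agent.H412.OT.Defs

/-!
# S3509: the condition on the base pair for components of type `²A_2`, `q = 3` (helper380)

`β = γ + γ'`, `γ' = θ γ`, `θ β = β`: `z = h_β(-1)` lies in every normal subgroup `N` with `Y ≤ X N`, it inverts
`E / X`, `E = (X_γ X_γ' X_β)^α`, `E ≤ M`, so `[z, E] ≤ N` and `X = [[z, E], E] ≤ N`.

* `E3_mul`, `E3_inv` : the group `X_γ X_γ' X_β`;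
* `condZ` : `Cond K X Y`.
-/

set_option autoImplicit false
set_option linter.unusedSectionVars false

namespace Cfsg.Agent.H380.RG

open scoped commutatorElement
open CoxeterSystem Cfsg Cfsg.Lie Cfsg.Lie.ChevalleyDatum
open Cfsg.Agent.ChevalleyStructure Cfsg.Agent.ChevalleyStructure.Elts Cfsg.Agent.ChevalleyStructure.CoxeterGeom
  Cfsg.Agent.ChevalleyStructure.CoxeterGeomTypes Cfsg.Agent.ChevalleyStructure.NPerm
open Cfsg.Agent.Tits.Roots Cfsg.Agent.Tits.Core Cfsg.Agent.Nodes Cfsg.Agent.Nodes.Reps Cfsg.Agent.Nodes.BNOf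
  Cfsg.Agent.Nodes.RGDChev Cfsg.Agent.Nodes.Coroot Cfsg.Agent.Nodes.SubComb
open Cfsg.Agent.KFacts.RgdField Cfsg.Agent.KFacts.RgdChevCoord
open Cfsg.Agent.H46.Gen (Rt Pr NN xc_br xc_commute xc_add xc_zero xc_neg NN_sq NN_swap NN_neg)
open Cfsg.Agent.BpExc.Fr Cfsg.Agent.BpExc.LangFr Cfsg.Agent.BpExc.HX
open Cfsg.Agent.H398.RG (Cond MK le_MK conj_MK)

universe u

variable {D : ChevalleyDatum} {l : ℕ} {M : CoxeterMatrix (Fin l)} {hp : IsType D l M} {W : Type*} [Group W]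
  {cs : CoxeterSystem M W} {k : Type u} [Field k]

section Zee

variable {γ γ' : Fin l → ℤ}

variable (hp) in
/-- `x_γ(a) x_γ'(b) x_β(c)` -/
noncomputable def E3 (γ γ' : Fin l → ℤ) (a b c : k) : ↥(D.group k) := xc hp γ a * xc hp γ' b * xc hp (γ + γ') c

variable (Lγ : Lg cs hp.isCartan γ) (Lγ' : Lg cs hp.isCartan γ') (hgg : cpr cs hp.isCartan γ' γ = -1)

include Lγ Lγ' hgg

theorem E3_mul (a b c a' b' c' : k) : E3 hp γ γ' a b c * E3 hp γ γ' a' b' c' =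
    E3 hp γ γ' (a + a') (b + b') (c + c' - (NN D l γ γ' : k) * (a' * b)) := by
  have := finite_W hp cs
  have c1 : ∀ t u : k, xc hp (γ + γ') t * xc hp γ u = xc hp γ u * xc hp (γ + γ') t := fun t u =>
    (commute_left (hp := hp) Lγ Lγ' hgg u t).eq.symm
  have c2 : ∀ t u : k, xc hp (γ + γ') t * xc hp γ' u = xc hp γ' u * xc hp (γ + γ') t := by
    intro t u
    have h1 := commute_left (hp := hp) (k := k) Lγ' Lγ (by rw [Lγ.symm Lγ', hgg]) u t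
    rw [add_comm γ' γ] at h1
    exact h1.eq.symm
  have c3 : xc hp γ' b * xc hp γ a' = xc hp γ a' * xc hp γ' b * xc hp (γ + γ') (-((NN D l γ γ' : k) * (a' * b))) := by
    have h1 := xc_br hp (pr_of hp cs Lγ Lγ' hgg) a' b
    rw [xc_neg, ← h1, commutatorElement_def]
    have h2 : xc hp γ a' * xc hp γ' b * (xc hp γ a' * xc hp γ' b * (xc hp γ a')⁻¹ * (xc hp γ' b)⁻¹)⁻¹ =
      xc hp γ a' * xc hp γ' b * (xc hp γ' b * xc hp γ a' * (xc hp γ' b)⁻¹ * (xc hp γ a')⁻¹) := by group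
    rw [h2]
    have h3 : Commute (xc hp γ a' * xc hp γ' b) (xc hp γ' b * xc hp γ a' * (xc hp γ' b)⁻¹ * (xc hp γ a')⁻¹) := by
      have h4 : xc hp γ' b * xc hp γ a' * (xc hp γ' b)⁻¹ * (xc hp γ a')⁻¹ =
          xc hp (γ + γ') (-((NN D l γ γ' : k) * (a' * b))) := by
        rw [xc_neg, ← h1, commutatorElement_def]
        group
      rw [h4]
      have h5 : Commute (xc hp (γ + γ') (-((NN D l γ γ' : k) * (a' * b)))) (xc hp γ a') := c1 _ _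
      have h6 : Commute (xc hp (γ + γ') (-((NN D l γ γ' : k) * (a' * b)))) (xc hp γ' b) := c2 _ _
      exact (h5.mul_right h6).symm
    rw [h3.eq]
    group
  unfold E3
  have e1 : xc hp γ (a + a') = xc hp γ a * xc hp γ a' := xc_add hp γ a a'
  have e2 : xc hp γ' (b + b') = xc hp γ' b * xc hp γ' b' := xc_add hp γ' b b'
  have e3 : xc hp (γ + γ') (c + c' - (NN D l γ γ' : k) * (a' * b)) =
      xc hp (γ + γ') (-((NN D l γ γ' : k) * (a' * b))) * xc hp (γ + γ') c * xc hp (γ + γ') c' := by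
    rw [← xc_add, ← xc_add]
    congr 1
    ring
  rw [e1, e2, e3]
  calc xc hp γ a * xc hp γ' b * xc hp (γ + γ') c * (xc hp γ a' * xc hp γ' b' * xc hp (γ + γ') c') =
      xc hp γ a * xc hp γ' b * (xc hp (γ + γ') c * xc hp γ a') * xc hp γ' b' * xc hp (γ + γ') c' := by group
    _ = xc hp γ a * (xc hp γ' b * xc hp γ a') * (xc hp (γ + γ') c * xc hp γ' b') * xc hp (γ + γ') c' := by
      rw [c1]; group
    _ = xc hp γ a * (xc hp γ a' * xc hp γ' b * xc hp (γ + γ') (-((NN D l γ γ' : k) * (a' * b)))) *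
        (xc hp γ' b' * xc hp (γ + γ') c) * xc hp (γ + γ') c' := by rw [c2, c3]
    _ = xc hp γ a * xc hp γ a' * xc hp γ' b * (xc hp (γ + γ') (-((NN D l γ γ' : k) * (a' * b))) * xc hp γ' b') *
        xc hp (γ + γ') c * xc hp (γ + γ') c' := by group
    _ = _ := by rw [c2]; group

omit Lγ Lγ' hgg in
theorem E3_zero : E3 hp γ γ' (0 : k) 0 0 = 1 := by
  unfold E3
  rw [xc_zero, xc_zero, xc_zero, mul_one, mul_one]

omit Lγ Lγ' hgg in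
theorem E3_beta (c : k) : E3 hp γ γ' 0 0 c = xc hp (γ + γ') c := by
  unfold E3
  rw [xc_zero, xc_zero, one_mul, one_mul]

theorem E3_inv (a b c : k) : (E3 hp γ γ' a b c)⁻¹ = E3 hp γ γ' (-a) (-b) (-c - (NN D l γ γ' : k) * (a * b)) := by
  rw [inv_eq_iff_mul_eq_one, E3_mul Lγ Lγ' hgg, ← E3_zero (hp := hp) (γ := γ) (γ' := γ')]
  congr 1 <;> ring

/-- a change of the last parameter -/
theorem E3_eq (a b c c' : k) : E3 hp γ γ' a b c = E3 hp γ γ' a b c' * xc hp (γ + γ') (c - c') := by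
  rw [← E3_beta (hp := hp), E3_mul Lγ Lγ' hgg]
  congr 1 <;> ring

/-- the commutator -/
theorem E3_comm (a b c a' b' c' : k) : ⁅E3 hp γ γ' a b c, E3 hp γ γ' a' b' c'⁆ =
    xc hp (γ + γ') ((NN D l γ γ' : k) * (a * b' - a' * b)) := by
  rw [commutatorElement_def, E3_inv Lγ Lγ' hgg, E3_inv Lγ Lγ' hgg, E3_mul Lγ Lγ' hgg, E3_mul Lγ Lγ' hgg, E3_mul Lγ Lγ' hgg,
    ← E3_beta (hp := hp)]
  congr 1 <;> ring

end Zee

section zelt

open Cfsg.Agent.H167.EX (ph ph_up ph_lo wS_sq hS_neg_sq)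
open Cfsg.Agent.Nodes.RGDFoldSL (wS hS psi_hS)
open Cfsg.Agent.ChevalleyStructure.SL2Hom (up lo)
open Cfsg.Agent.H469.Exc.SigFr

/-- the element `h_β(-1)` -/
theorem exists_zelt {β : Fin l → ℤ} (hβ : IsRoot cs hp.isCartan β) : ∃ z : ↥(D.group k),
    (∀ t : k, t ≠ 0 → (xc hp β t * xc hp (-β) (-t⁻¹) * xc hp β t) ^ 2 = z) ∧ z ^ 2 = 1 ∧
    ∀ v, IsRoot cs hp.isCartan v → ∀ u : k, z * xc hp v u * z⁻¹ = xc hp v ((-1 : k) ^ (cpr cs hp.isCartan v β) * u) := by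
  obtain ⟨s, hs, rfl⟩ := (isRoot_iff hp cs β).1 hβ
  have e1 : ∀ t : k, ph hp k hs (up t) = xc hp (vec D l s) t := fun t => by
    rw [ph_up]
    exact Subtype.ext (coe_xc hp hs t).symm
  have e2 : ∀ t : k, ph hp k hs (lo t) = xc hp (-vec D l s) t := fun t => by
    rw [ph_lo, ← vec_neg hp hs]
    exact Subtype.ext (coe_xc hp (neg_lt hp.inList hs) t).symm
  refine ⟨ph hp k hs (hS (-1)), fun t ht => ?_, ?_, ?_⟩
  · have e4 : up t * lo (-t⁻¹) * up t = wS t := mul_assoc _ _ _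
    rw [← e1, ← e2, ← map_mul, ← map_mul, ← map_pow, e4, wS_sq ht]
  · rw [← map_pow, hS_neg_sq, map_one]
  · intro v hv u
    obtain ⟨s', hs', rfl⟩ := (isRoot_iff hp cs v).1 hv
    apply Subtype.ext
    rw [Subgroup.coe_mul, Subgroup.coe_mul, Subgroup.coe_inv, coe_xc hp hs', coe_xc hp hs']
    have e3 : ((ph hp k hs (hS (-1)) : ↥(D.group k)) : GL D.Idx k) = hG hp.inList s (-1) := psi_hS hp.inList hs (-1)
    rw [e3, Cfsg.Agent.H412.OT.hG_conj_xG hp.inList hs hs' (neg_ne_zero.2 one_ne_zero),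
      Cfsg.Agent.H3.OT.cpr_vec' hp cs hs hs']

end zelt

variable {α : MulAut ↥(D.group k)} {θ : (Fin l → ℤ) ≃+ (Fin l → ℤ)} {r e : ℕ} [Fact r.Prime] [CharP k r]
  {γ γ' : Fin l → ℤ}

theorem NN_one {a b : Fin l → ℤ} (h : Pr D l a b) (hp : IsType D l M) : (NN D l a b : k) * (NN D l a b : k) = 1 := by
  rw [← Int.cast_mul, NN_sq hp h, Int.cast_one]

/-- the coefficients of `α` on `X_β` and `X_(-β)` are inverse to each other -/
theorem coef_mul [IsAlgClosed k] (hσ : IsFrob r e α) (he : r ^ e = r) (F : Fr cs hp.isCartan (TT D k) (XX D l k) α θ)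
    (Lγ : Lg cs hp.isCartan γ) (Lγ' : Lg cs hp.isCartan γ') (hgg : cpr cs hp.isCartan γ' γ = -1)
    (h2 : θ γ = γ') (h3 : θ γ' = γ) : ∃ cb cm : k, cb * cm = 1 ∧
      (∀ t, α (xc hp (γ + γ') t) = xc hp (γ + γ') (cb * t ^ r)) ∧
      ∀ t, α (xc hp (-(γ + γ')) t) = xc hp (-(γ + γ')) (cm * t ^ r) := by
  have := finite_W hp cs
  have Lβ : Lg cs hp.isCartan (γ + γ') := Lγ.add Lγ' hgg
  have hgg' : cpr cs hp.isCartan γ γ' = -1 := by rw [Lγ.symm Lγ', hgg]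
  have g1 : cpr cs hp.isCartan γ (γ + γ') = 1 := by
    rw [Lγ.symm Lβ, cpr_add _ _ _ _ Lγ.1, cpr_self _ _ Lγ.1, hgg]; norm_num
  have g2 : cpr cs hp.isCartan γ' (γ + γ') = 1 := by
    rw [Lγ'.symm Lβ, cpr_add _ _ _ _ Lγ'.1, cpr_self _ _ Lγ'.1, hgg']; norm_num
  have h1 : θ (γ + γ') = γ + γ' := by rw [map_add, h2, h3, add_comm]
  obtain ⟨cb, hcb, hcb1⟩ := fr_xc hp cs hσ F Lβ.1
  obtain ⟨cm, hcm, hcm1⟩ := fr_xc hp cs hσ F Lβ.neg.1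
  obtain ⟨c, hc, hc1⟩ := fr_xc hp cs hσ F Lγ.1
  obtain ⟨cn, hcn, hcn1⟩ := fr_xc hp cs hσ F Lγ'.neg.1
  simp only [he, h1] at hcb1
  simp only [he, map_neg, h1] at hcm1
  simp only [he, h2] at hc1
  simp only [he, map_neg, h3] at hcn1
  refine ⟨cb, cm, ?_, hcb1, hcm1⟩
  have p1 : Pr D l (-(γ + γ')) γ := pr_of hp cs Lβ.neg Lγ (by rw [cpr_neg_right _ _ _ Lβ.1, g1])
  have p2 : Pr D l (-(γ + γ')) γ' := pr_of hp cs Lβ.neg Lγ' (by rw [cpr_neg_right _ _ _ Lβ.1, g2])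
  have w1 : -(γ + γ') + γ = -γ' := by abel
  have w2 : -(γ + γ') + γ' = -γ := by abel
  have w3 : γ + γ' + -γ' = γ := by abel
  have w4 : γ + γ' + -γ = γ' := by abel
  have p3 : Pr D l (γ + γ') (-γ') := by
    have := p1.next hp
    rwa [neg_neg, w1] at this
  have p4 : Pr D l (γ + γ') (-γ) := by
    have := p2.next hp
    rwa [neg_neg, w2] at this
  have n3 : NN D l (γ + γ') (-γ') = NN D l (-(γ + γ')) γ := by
    have := NN_neg hp p1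
    rwa [neg_neg, w1] at this
  have n4 : NN D l (γ + γ') (-γ) = NN D l (-(γ + γ')) γ' := by
    have := NN_neg hp p2
    rwa [neg_neg, w2] at this
  -- first relation
  have e1 := congrArg α (xc_br hp p1 (1 : k) 1)
  rw [map_commutatorElement, hcm1, hc1, xc_br hp p2, w1, w2, hcn1] at e1
  have f1 := xc_inj' (hp := hp) Lγ.neg.1 e1
  -- second relation
  have e2 := congrArg α (xc_br hp p3 (1 : k) 1)
  rw [map_commutatorElement, hcb1, hcn1, xc_br hp p4, w3, w4, hc1] at e2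
  have f2 := xc_inj' (hp := hp) Lγ'.1 e2
  rw [n3, n4] at f2
  have q1 := NN_one (k := k) p1 hp
  have q2 := NN_one (k := k) p2 hp
  obtain ⟨x, hx⟩ : ∃ x : k, x = (NN D l (-(γ + γ')) γ : k) := ⟨_, rfl⟩
  obtain ⟨y, hy⟩ : ∃ y : k, y = (NN D l (-(γ + γ')) γ' : k) := ⟨_, rfl⟩
  rw [← hx, ← hy] at f1 f2
  rw [← hx] at q1
  rw [← hy] at q2
  simp only [one_pow, mul_one] at f1 f2
  have q3 : x ^ r * x ^ r = 1 := by rw [← mul_pow, q1, one_pow]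
  have f3 : (c * cn) * (cb * cm) = (c * cn) * 1 := by
    have : (y * (cm * c)) * (y * (cb * cn)) = (cn * x ^ r) * (c * x ^ r) := by rw [f1, f2]
    calc (c * cn) * (cb * cm) = (y * y) * ((c * cn) * (cb * cm)) := by rw [q2, one_mul]
      _ = (y * (cm * c)) * (y * (cb * cn)) := by ring
      _ = (cn * x ^ r) * (c * x ^ r) := this
      _ = (c * cn) * (x ^ r * x ^ r) := by ring
      _ = (c * cn) * 1 := by rw [q3]
  exact mul_left_cancel₀ (mul_ne_zero hc hcn) f3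

theorem xc_zpow (v : Fin l → ℤ) (a : k) (n : ℤ) : xc hp v (n * a) = xc hp v a ^ n := by
  have h1 : ∀ m : ℕ, xc hp v (m * a) = xc hp v a ^ m := by
    intro m
    induction m with
    | zero => rw [Nat.cast_zero, zero_mul, pow_zero, xc_zero]
    | succ m ih => rw [Nat.cast_succ, add_mul, one_mul, xc_add, ih, pow_succ]
  obtain ⟨m, rfl | rfl⟩ := n.eq_nat_or_neg
  · rw [Int.cast_natCast, zpow_natCast, h1]
  · rw [Int.cast_neg, Int.cast_natCast, neg_mul, xc_neg, h1, zpow_neg, zpow_natCast]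

theorem exists_cubic [IsAlgClosed k] {c : k} (hc : c ≠ 0) (ν : k) : ∃ κ : k, c * κ ^ 3 - ν = κ := by
  open Polynomial in
  obtain ⟨κ, hκ⟩ := IsAlgClosed.exists_root (C c * X ^ 3 - X - C ν : Polynomial k) (by
    have h1 : (C c * X ^ 3 - X - C ν : Polynomial k).natDegree = 3 := by
      compute_degree!
    have h2 : (C c * X ^ 3 - X - C ν : Polynomial k) ≠ 0 := by
      intro h
      rw [h, Polynomial.natDegree_zero] at h1
      omega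
    rw [Polynomial.degree_eq_natDegree h2, h1]
    exact_mod_cast (by norm_num : (3 : ℕ) ≠ 0))
  refine ⟨κ, ?_⟩
  rw [Polynomial.IsRoot.def] at hκ
  simp only [Polynomial.eval_sub, Polynomial.eval_mul, Polynomial.eval_C, Polynomial.eval_pow, Polynomial.eval_X] at hκ
  linear_combination hκ

/-- **(Z)**: the condition on the base pair for components with `β = γ + θγ`, `q = 3`. -/
theorem condZ [IsAlgClosed k] (hr3 : r = 3) (hσ : IsFrob r e α) (he : r ^ e = r)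
    (F : Fr cs hp.isCartan (TT D k) (XX D l k) α θ)
    (Lγ : Lg cs hp.isCartan γ) (Lγ' : Lg cs hp.isCartan γ') (hgg : cpr cs hp.isCartan γ' γ = -1)
    (h2 : θ γ = γ') (h3 : θ γ' = γ) {K X₀ Y₀ : Subgroup ↥(D.group k)}
    (hX₀ : ∀ u, u ∈ X₀ ↔ u ∈ XX D l k (γ + γ') ∧ α u = u) (hY₀ : ∀ u, u ∈ Y₀ ↔ u ∈ XX D l k (-(γ + γ')) ∧ α u = u)
    (hYM : Y₀ ≤ MK K X₀)
    (hK : ∀ g₁ ∈ XX D l k γ, ∀ g₂ ∈ XX D l k γ', ∀ g₃ ∈ XX D l k (γ + γ'), α (g₁ * g₂ * g₃) = g₁ * g₂ * g₃ →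
      g₁ * g₂ * g₃ ∈ K) : Cond K X₀ Y₀ := by
  subst hr3
  have := finite_W hp cs
  have hthree : ∀ a : k, a + a + a = 0 := by
    intro a
    have h4 : ((3 : ℕ) : k) = 0 := CharP.cast_eq_zero k 3
    have h5 : a + a + a = ((3 : ℕ) : k) * a := by push_cast; ring
    rw [h5, h4, zero_mul]
  have hgg' : cpr cs hp.isCartan γ γ' = -1 := by rw [Lγ.symm Lγ', hgg]
  have Lβ : Lg cs hp.isCartan (γ + γ') := Lγ.add Lγ' hgg
  have g1 : cpr cs hp.isCartan γ (γ + γ') = 1 := by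
    rw [Lγ.symm Lβ, cpr_add _ _ _ _ Lγ.1, cpr_self _ _ Lγ.1, hgg]; norm_num
  have g2 : cpr cs hp.isCartan γ' (γ + γ') = 1 := by
    rw [Lγ'.symm Lβ, cpr_add _ _ _ _ Lγ'.1, cpr_self _ _ Lγ'.1, hgg']; norm_num
  obtain ⟨cb, cm, hcc, hb, hm⟩ := coef_mul (hp := hp) hσ he F Lγ Lγ' hgg h2 h3
  have hcb : cb ≠ 0 := by
    rintro rfl
    rw [zero_mul] at hcc
    exact zero_ne_one hcc
  obtain ⟨c, hc, hc1⟩ := fr_xc hp cs hσ F Lγ.1
  obtain ⟨c', hc', hc1'⟩ := fr_xc hp cs hσ F Lγ'.1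
  simp only [he, h2] at hc1
  simp only [he, h3] at hc1'
  obtain ⟨ν, hν⟩ : ∃ ν : k, ν = (NN D l γ γ' : k) := ⟨_, rfl⟩
  have hν0 : ν ≠ 0 := by
    rw [hν]
    exact NN_ne (hp := hp) (pr_of hp cs Lγ Lγ' hgg)
  -- the torus element
  obtain ⟨t, ht, ht0⟩ : ∃ t : k, cb * t ^ 3 = t ∧ t ≠ 0 := by
    obtain ⟨S, hS, hS'⟩ := exists_roots (Q := 3) (r := 3) (by norm_num) dvd_rfl hcb
    by_contra hcon
    push Not at hcon
    have h1 : S ⊆ {0} := fun t ht => by rw [Finset.mem_singleton]; exact hcon t (hS' t ht)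
    have h2 := Finset.card_le_card h1
    rw [hS, Finset.card_singleton] at h2
    omega
  have hcb2 : cb * t ^ 2 = 1 := by
    apply mul_right_cancel₀ ht0
    rw [one_mul, mul_assoc, ← pow_succ]
    exact ht
  have hcm : cm = t ^ 2 := by
    apply mul_left_cancel₀ hcb
    rw [hcc, hcb2]
  obtain ⟨z, hz1, hz2, hz3⟩ := exists_zelt (k := k) (hp := hp) (cs := cs) Lβ.1
  obtain ⟨x₁, hx₁⟩ : ∃ x₁ : ↥(D.group k), x₁ = xc hp (γ + γ') t := ⟨_, rfl⟩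
  obtain ⟨y₁, hy₁⟩ : ∃ y₁ : ↥(D.group k), y₁ = xc hp (-(γ + γ')) (-t⁻¹) := ⟨_, rfl⟩
  have hx₁α : α x₁ = x₁ := by rw [hx₁, hb, ht]
  have hy₁α : α y₁ = y₁ := by
    rw [hy₁, hm, hcm]
    congr 1
    field_simp
    try ring
  have hx₁X : x₁ ∈ X₀ := (hX₀ _).2 ⟨by rw [hx₁]; exact (mem_XX_iff (hp := hp) Lβ.1).2 ⟨t, rfl⟩, hx₁α⟩
  have hy₁Y : y₁ ∈ Y₀ := (hY₀ _).2 ⟨by rw [hy₁]; exact (mem_XX_iff (hp := hp) Lβ.neg.1).2 ⟨_, rfl⟩, hy₁α⟩
  have hx₁M : x₁ ∈ MK K X₀ := le_MK K X₀ hx₁X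
  have hy₁M : y₁ ∈ MK K X₀ := hYM hy₁Y
  have hw2 : (x₁ * y₁ * x₁) ^ 2 = z := by rw [hx₁, hy₁]; exact hz1 t ht0
  have hzM : z ∈ MK K X₀ := by
    rw [← hw2]
    exact Subgroup.pow_mem _ (Subgroup.mul_mem _ (Subgroup.mul_mem _ hx₁M hy₁M) hx₁M) 2
  have hzα : α z = z := by
    rw [← hw2, map_pow, map_mul, map_mul, hx₁α, hy₁α]
  have hzE : ∀ a b κ : k, z * E3 hp γ γ' a b κ * z⁻¹ = E3 hp γ γ' (-a) (-b) κ := by
    intro a b κ
    have k1 := hz3 γ Lγ.1 a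
    have k2 := hz3 γ' Lγ'.1 b
    have k3 := hz3 (γ + γ') Lβ.1 κ
    rw [g1, zpow_one, neg_one_mul] at k1
    rw [g2, zpow_one, neg_one_mul] at k2
    rw [cpr_self _ _ Lβ.1] at k3
    have k4 : ((-1 : k) ^ (2 : ℤ)) * κ = κ := by
      rw [show (2 : ℤ) = ((2 : ℕ) : ℤ) from rfl, zpow_natCast]
      ring
    rw [k4] at k3
    unfold E3
    rw [← k1, ← k2]
    conv_rhs => rw [← k3]
    group
  have hαE : ∀ a b κ : k, α (E3 hp γ γ' a b κ) =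
      E3 hp γ γ' (c' * b ^ 3) (c * a ^ 3) (cb * κ ^ 3 - ν * (c' * b ^ 3 * (c * a ^ 3))) := by
    intro a b κ
    have k1 : α (E3 hp γ γ' a b κ) = E3 hp γ γ' 0 (c * a ^ 3) 0 * E3 hp γ γ' (c' * b ^ 3) 0 0 *
        E3 hp γ γ' 0 0 (cb * κ ^ 3) := by
      unfold E3
      rw [map_mul, map_mul, hc1, hc1', hb]
      simp only [xc_zero, one_mul, mul_one]
    rw [k1, E3_mul Lγ Lγ' hgg, E3_mul Lγ Lγ' hgg, hν]
    congr 1 <;> ring
  -- the fixed elements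
  have hex : ∀ a : k, c' * c ^ 3 * a ^ (3 ^ 2) = a → ∃ κ, α (E3 hp γ γ' a (c * a ^ 3) κ) = E3 hp γ γ' a (c * a ^ 3) κ := by
    intro a ha
    have ha' : c' * (c * a ^ 3) ^ 3 = a := by
      have ha2 : c' * (c * a ^ 3) ^ 3 = c' * c ^ 3 * a ^ (3 ^ 2) := by ring
      rw [ha2, ha]
    obtain ⟨κ, hκ⟩ := exists_cubic hcb (ν * (a * (c * a ^ 3)))
    refine ⟨κ, ?_⟩
    rw [hαE, ha', hκ]
  have hKE : ∀ a b κ : k, α (E3 hp γ γ' a b κ) = E3 hp γ γ' a b κ → E3 hp γ γ' a b κ ∈ K := fun a b κ h =>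
    hK _ ((mem_XX_iff (hp := hp) Lγ.1).2 ⟨a, rfl⟩) _ ((mem_XX_iff (hp := hp) Lγ'.1).2 ⟨b, rfl⟩) _
      ((mem_XX_iff (hp := hp) Lβ.1).2 ⟨κ, rfl⟩) h
  -- `[z, e]`
  have hf : ∀ a b κ : k, z * E3 hp γ γ' a b κ * z⁻¹ * (E3 hp γ γ' a b κ)⁻¹ = E3 hp γ γ' a b (ν * (a * b)) := by
    intro a b κ
    rw [hzE, E3_inv Lγ Lγ' hgg, E3_mul Lγ Lγ' hgg, ← hν]
    congr 1
    · linear_combination -hthree a
    · linear_combination -hthree b
    · linear_combination -hthree (ν * (a * b))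
  have heM : ∀ a b κ : k, α (E3 hp γ γ' a b κ) = E3 hp γ γ' a b κ → E3 hp γ γ' a b κ ∈ MK K X₀ := by
    intro a b κ h
    have k1 := hKE a b κ h
    have k2 : z * (E3 hp γ γ' a b κ * z⁻¹ * (E3 hp γ γ' a b κ)⁻¹) ∈ MK K X₀ :=
      Subgroup.mul_mem _ hzM (conj_MK k1 (Subgroup.inv_mem _ hzM))
    have k3 : z * (E3 hp γ γ' a b κ * z⁻¹ * (E3 hp γ γ' a b κ)⁻¹) = E3 hp γ γ' a b (ν * (a * b)) := by
      rw [← hf a b κ]
      group
    have k4 := E3_eq (hp := hp) Lγ Lγ' hgg a b κ (ν * (a * b))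
    have k5 : α (xc hp (γ + γ') (κ - ν * (a * b))) = xc hp (γ + γ') (κ - ν * (a * b)) := by
      have k6 : xc hp (γ + γ') (κ - ν * (a * b)) = (E3 hp γ γ' a b (ν * (a * b)))⁻¹ * E3 hp γ γ' a b κ := by
        rw [k4]; group
      rw [k6, ← k3]
      simp only [map_mul, map_inv, hzα, h]
    rw [k4]
    refine Subgroup.mul_mem _ ?_ (le_MK K X₀ ((hX₀ _).2 ⟨(mem_XX_iff (hp := hp) Lβ.1).2 ⟨_, rfl⟩, k5⟩))
    rw [← k3]
    exact k2
  -- the normal subgroup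
  intro N hNM hN hY
  suffices hsuff : ∀ u ∈ XX D l k (γ + γ'), α u = u → u ∈ N from fun u hu => hsuff u ((hX₀ u).1 hu).1 ((hX₀ u).1 hu).2
  obtain ⟨x₂, hx₂, n₂, hn₂, hy⟩ := hY y₁ hy₁Y
  have hw4 : (x₁ * y₁ * x₁) ^ 4 = 1 := by
    rw [show (4 : ℕ) = 2 * 2 from rfl, pow_mul, hw2, hz2]
  have hwN : x₁ * y₁ * x₁ ∈ N := by
    obtain ⟨x₃, hx₃⟩ : ∃ x₃, x₃ = x₁ * x₂ * x₁ := ⟨_, rfl⟩
    obtain ⟨n₃, hn₃⟩ : ∃ n₃, n₃ = x₁⁻¹ * n₂ * x₁⁻¹⁻¹ := ⟨_, rfl⟩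
    have hn₃N : n₃ ∈ N := by
      rw [hn₃]
      exact hN _ (Subgroup.inv_mem _ hx₁M) _ hn₂
    have hx₃X : x₃ ∈ X₀ := by
      rw [hx₃]
      exact Subgroup.mul_mem _ (Subgroup.mul_mem _ hx₁X hx₂) hx₁X
    have hx₃M : x₃ ∈ MK K X₀ := le_MK K X₀ hx₃X
    have hw : x₁ * y₁ * x₁ = x₃ * n₃ := by
      rw [hx₃, hn₃, hy]
      group
    have hx₃3 : x₃ ^ 3 = 1 := by
      obtain ⟨τ, hτ⟩ := (mem_XX_iff (hp := hp) Lβ.1).1 ((hX₀ _).1 hx₃X).1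
      rw [hτ, pow_succ, pow_two, ← xc_add, ← xc_add, hthree, xc_zero]
    have hw3 : (x₃ * n₃) ^ 3 ∈ N := by
      have e1 : (x₃ * n₃) ^ 3 = x₃ ^ 3 * ((x₃⁻¹ * (x₃⁻¹ * n₃ * x₃⁻¹⁻¹) * x₃⁻¹⁻¹) * (x₃⁻¹ * n₃ * x₃⁻¹⁻¹) * n₃) := by
        rw [pow_succ, pow_two, pow_succ, pow_two]
        group
      have hi := Subgroup.inv_mem _ hx₃M
      rw [e1, hx₃3, one_mul]
      exact N.mul_mem (N.mul_mem (hN _ hi _ (hN _ hi _ hn₃N)) (hN _ hi _ hn₃N)) hn₃N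
    rw [hw] at hw4 ⊢
    have e2 : x₃ * n₃ = (x₃ * n₃) ^ 4 * ((x₃ * n₃) ^ 3)⁻¹ := by group
    rw [e2, hw4, one_mul]
    exact N.inv_mem hw3
  have hzN : z ∈ N := by
    rw [← hw2]
    exact N.pow_mem hwN 2
  -- the final commutator
  have hu : c' * c ^ 3 ≠ 0 := mul_ne_zero hc' (pow_ne_zero _ hc)
  obtain ⟨a, ha, ha1⟩ := exists_adm (Q := 3) (r := 3) (by norm_num) dvd_rfl hu (one_ne_zero (α := k)) 0
  have ha0 : a ≠ 0 := by
    rintro rfl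
    apply ha1
    ring
  obtain ⟨a', ha', ha'1⟩ := exists_adm (Q := 3) (r := 3) (by norm_num) dvd_rfl hu
    (mul_ne_zero hν0 (mul_ne_zero ha0 hc)) (-(ν * (c * a ^ 3)))
  obtain ⟨κ, hκ⟩ := hex a ha
  obtain ⟨κ', hκ'⟩ := hex a' ha'
  have hfN : E3 hp γ γ' a (c * a ^ 3) (ν * (a * (c * a ^ 3))) ∈ N := by
    rw [← hf a (c * a ^ 3) κ]
    have k1 : z * E3 hp γ γ' a (c * a ^ 3) κ * z⁻¹ * (E3 hp γ γ' a (c * a ^ 3) κ)⁻¹ =
      z * (E3 hp γ γ' a (c * a ^ 3) κ * z⁻¹ * (E3 hp γ γ' a (c * a ^ 3) κ)⁻¹) := by group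
    rw [k1]
    exact N.mul_mem hzN (hN _ (heM _ _ _ hκ) _ (N.inv_mem hzN))
  have hfα : α (E3 hp γ γ' a (c * a ^ 3) (ν * (a * (c * a ^ 3)))) = E3 hp γ γ' a (c * a ^ 3) (ν * (a * (c * a ^ 3))) := by
    rw [← hf a (c * a ^ 3) κ]
    simp only [map_mul, map_inv, hzα, hκ]
  obtain ⟨τ₀, hτ₀⟩ : ∃ τ₀ : k, τ₀ = ν * (a * (c * a' ^ 3) - a' * (c * a ^ 3)) := ⟨_, rfl⟩
  have hτ₀0 : τ₀ ≠ 0 := by
    intro h0
    apply ha'1
    rw [← h0, hτ₀]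
    ring
  have hcomm : ⁅E3 hp γ γ' a (c * a ^ 3) (ν * (a * (c * a ^ 3))), E3 hp γ γ' a' (c * a' ^ 3) κ'⁆ =
      xc hp (γ + γ') τ₀ := by
    rw [E3_comm Lγ Lγ' hgg, ← hν, hτ₀]
  have hτN : xc hp (γ + γ') τ₀ ∈ N := by
    rw [← hcomm, commutatorElement_def]
    have k1 := hN _ (heM _ _ _ hκ') _ (N.inv_mem hfN)
    have k2 := N.mul_mem hfN k1
    have k3 : ∀ f e' : ↥(D.group k), f * e' * f⁻¹ * e'⁻¹ = f * (e' * f⁻¹ * e'⁻¹) := fun f e' => by group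
    rw [k3]
    exact k2
  have hτα : α (xc hp (γ + γ') τ₀) = xc hp (γ + γ') τ₀ := by
    rw [← hcomm, map_commutatorElement, hfα, hκ']
  intro u hu huα
  obtain ⟨τ, rfl⟩ := (mem_XX_iff (hp := hp) Lβ.1).1 hu
  rw [hb] at huα hτα
  obtain ⟨n, hn⟩ := multiple_of_fix (r := 3) hτ₀0 (xc_inj' (hp := hp) Lβ.1 huα) (xc_inj' (hp := hp) Lβ.1 hτα)
  rw [hn, xc_zpow]
  exact N.zpow_mem hτN n

/-- **(Z)** in terms of `β` and `a`, `a + θ a = β`. -/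
theorem condZ_lg [IsAlgClosed k] (hr3 : r = 3) (hσ : IsFrob r e α) (he : r ^ e = r)
    (F : Fr cs hp.isCartan (TT D k) (XX D l k) α θ) {β a : Fin l → ℤ}
    (Lβ : Lg cs hp.isCartan β) (La : Lg cs hp.isCartan a) (haβ : cpr cs hp.isCartan a β = 1)
    (h1 : θ β = β) (h2 : a + θ a = β) {K X₀ Y₀ : Subgroup ↥(D.group k)}
    (hX₀ : ∀ u, u ∈ X₀ ↔ u ∈ XX D l k β ∧ α u = u) (hY₀ : ∀ u, u ∈ Y₀ ↔ u ∈ XX D l k (-β) ∧ α u = u)
    (hYM : Y₀ ≤ MK K X₀)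
    (hK : ∀ g₁ ∈ XX D l k a, ∀ g₂ ∈ XX D l k (θ a), ∀ g₃ ∈ XX D l k β, α (g₁ * g₂ * g₃) = g₁ * g₂ * g₃ →
      g₁ * g₂ * g₃ ∈ K) : Cond K X₀ Y₀ := by
  have := finite_W hp cs
  have e1 : θ a = β + -a := by rw [← h2]; abel
  have hβa : cpr cs hp.isCartan β a = 1 := by rw [Lβ.symm La, haβ]
  have e2 : cpr cs hp.isCartan (-a) β = -1 := by rw [cpr_neg _ _ _ Lβ.1, haβ]
  have La' : Lg cs hp.isCartan (θ a) := by
    rw [e1]
    exact Lβ.add La.neg e2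
  have hgg : cpr cs hp.isCartan (θ a) a = -1 := by
    rw [e1, cpr_add _ _ _ _ La.1, cpr_neg _ _ _ La.1, cpr_self _ _ La.1, hβa]
    norm_num
  have h3 : θ (θ a) = a := by
    have h4 : θ (a + θ a) = β := by rw [h2, h1]
    rw [map_add, ← h2, add_comm a] at h4
    exact add_left_cancel h4
  subst h2
  exact condZ (hp := hp) hr3 hσ he F La La' hgg rfl h3 hX₀ hY₀ hYM hK

end Cfsg.Agent.H380.RG
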